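import Mathlib

/-!
Pushing up a group with dihedral quotient modulo its `2`-core: the configuration.
-/

set_option autoImplicit false
set_option linter.style.haveILetI false
set_option linter.unusedSectionVars false

open Subgroup
open scoped commutatorElement

namespace Cfsg.Agent.PushDihedral

variable {G : Type*} [Group G]

/-- The conjugate `g X g⁻¹`. -/
def cj (g : G) (X : Subgroup G) : Subgroup G := X.map (MulAut.conj g).toMonoidHom

theorem mem_cj {g : G} {X : Subgroup G} {x : G} : x ∈ cj g X ↔ g⁻¹ * x * g ∈ X := by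
  constructor
  · rintro ⟨w, hw, rfl⟩
    simpa [mul_assoc] using hw
  · intro h
    exact ⟨g⁻¹ * x * g, h, by simp [mul_assoc]⟩

theorem conj_mem_cj {g : G} {X : Subgroup G} {x : G} : g * x * g⁻¹ ∈ cj g X ↔ x ∈ X := by
  rw [mem_cj]; simp [mul_assoc]

theorem cj_mul (g g' : G) (X : Subgroup G) : cj (g * g') X = cj g (cj g' X) := by
  ext x; simp [mem_cj, mul_assoc]

theorem cj_one (X : Subgroup G) : cj 1 X = X := by
  ext x; simp [mem_cj]

theorem cj_mono (g : G) {X Y : Subgroup G} (h : X ≤ Y) : cj g X ≤ cj g Y := map_mono h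

theorem cj_le_cj {g : G} {X Y : Subgroup G} : cj g X ≤ cj g Y ↔ X ≤ Y :=
  map_le_map_iff_of_injective (MulAut.conj g).injective

theorem cj_le_iff {g : G} {X Y : Subgroup G} : cj g X ≤ Y ↔ X ≤ cj g⁻¹ Y := by
  rw [← cj_le_cj (g := g⁻¹), ← cj_mul, inv_mul_cancel, cj_one]

theorem le_cj_iff {g : G} {X Y : Subgroup G} : X ≤ cj g Y ↔ cj g⁻¹ X ≤ Y := by
  rw [cj_le_iff, inv_inv]

theorem cj_inj {g : G} {X Y : Subgroup G} : cj g X = cj g Y ↔ X = Y :=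
  ⟨fun h => le_antisymm (cj_le_cj.1 h.le) (cj_le_cj.1 h.ge), fun h => h ▸ rfl⟩

theorem cj_eq_self {g : G} {X : Subgroup G} (h : g ∈ normalizer (X : Set G)) : cj g X = X := by
  ext x
  rw [mem_cj]
  exact (mem_normalizer_iff''.1 h x).symm

theorem cj_eq_self_of_centralizer {g : G} {X : Subgroup G} (h : ∀ x ∈ X, x * g = g * x) :
    cj g X = X := by
  ext x
  rw [mem_cj]
  constructor
  · intro hx
    have := h _ hx
    have e : x = g⁻¹ * x * g := by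
      calc x = g * (g⁻¹ * x * g) * g⁻¹ := by group
        _ = (g⁻¹ * x * g) * g * g⁻¹ := by rw [this]
        _ = g⁻¹ * x * g := by group
    rwa [e]
  · intro hx
    rwa [mul_assoc, h x hx, inv_mul_cancel_left]

theorem mem_normalizer_of_cj {g : G} {X : Subgroup G} (h : cj g X = X) :
    g ∈ normalizer (X : Set G) := mem_normalizer_iff_map_conj_eq.2 h

/-- The elementary abelian part of the centre of a subgroup. -/
def omegaZ (Q : Subgroup G) : Subgroup G where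
  carrier := {x | x ∈ Q ∧ x * x = 1 ∧ ∀ q ∈ Q, q * x = x * q}
  one_mem' := ⟨one_mem _, one_mul 1, fun q _ => by rw [mul_one, one_mul]⟩
  mul_mem' := fun {a b} ⟨ha, ha2, hac⟩ ⟨hb, hb2, hbc⟩ => ⟨mul_mem ha hb, by
    rw [mul_assoc, ← mul_assoc b a, hac b hb, mul_assoc a b, hb2, mul_one, ha2],
    fun q hq => by rw [← mul_assoc, hac q hq, mul_assoc, hbc q hq, mul_assoc]⟩
  inv_mem' := fun {a} ⟨ha, ha2, hac⟩ => by
    have e : a⁻¹ = a := inv_eq_of_mul_eq_one_right ha2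
    rw [e]; exact ⟨ha, ha2, hac⟩

/-- The configuration. -/
structure Cfg (G : Type*) [Group G] where
  H : Subgroup G
  Q : Subgroup G
  P : Subgroup G
  y : G
  h : G
  hmem : h ∈ H
  QP : Q ≤ P
  PH : P ≤ H
  Qn : H ≤ normalizer (Q : Set G)
  pgroup : IsPGroup 2 P
  two : ∀ a ∈ P, a ∉ Q → ∀ b ∈ P, b ∉ Q → a * b ∈ Q
  exists_out : ∃ a ∈ P, a ∉ Q
  gen : ∀ X : Subgroup G, P ≤ X → cj h P ≤ X → H ≤ X
  gen2 : ∀ u ∈ P, u ∉ Q → ∀ X : Subgroup G, cj h P ≤ X → cj (u * h) P ≤ X → H ≤ X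
  yP : cj y P = P
  y2 : ∃ p ∈ P, ∃ c : G, (∀ x ∈ P, x * c = c * x) ∧ y * y = p * c
  noCore : ∀ W : Subgroup G, W ≤ P → H ≤ normalizer (W : Set G) → cj y W ≤ W → W = ⊥
  Qne : Q ≠ ⊥

namespace Cfg

variable (d : Cfg G)

abbrev Q' : Subgroup G := cj d.y d.Q
abbrev V : Subgroup G := omegaZ d.Q
abbrev V' : Subgroup G := cj d.y d.V
abbrev R : Subgroup G := d.Q ⊓ d.Q'
abbrev Z : Subgroup G := d.V ⊓ centralizer (d.P : Set G)
abbrev C : Subgroup G := d.V ⊓ centralizer (d.H : Set G)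

theorem VQ : d.V ≤ d.Q := fun _ h => h.1
theorem VP : d.V ≤ d.P := d.VQ.trans d.QP
theorem sq_V {x : G} (h : x ∈ d.V) : x * x = 1 := h.2.1
theorem inv_V {x : G} (h : x ∈ d.V) : x⁻¹ = x := inv_eq_of_mul_eq_one_right (d.sq_V h)
theorem comm_VQ {x q : G} (h : x ∈ d.V) (hq : q ∈ d.Q) : q * x = x * q := h.2.2 q hq
theorem QH : d.Q ≤ d.H := d.QP.trans d.PH

theorem cj_Q {g : G} (hg : g ∈ d.H) : cj g d.Q = d.Q := cj_eq_self (d.Qn hg)

theorem cj_omega {g : G} (h : cj g d.Q = d.Q) : cj g d.V = d.V := by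
  ext x
  have hm : ∀ q, g⁻¹ * q * g ∈ d.Q ↔ q ∈ d.Q := fun q => by rw [← mem_cj, h]
  rw [mem_cj]
  constructor
  · rintro ⟨h1, h2, h3⟩
    refine ⟨(hm x).1 h1, ?_, fun q hq => ?_⟩
    · have := congrArg (fun w => g * w * g⁻¹) h2
      simpa [mul_assoc] using this
    · have := congrArg (fun w => g * w * g⁻¹) (h3 _ ((hm q).2 hq))
      simpa [mul_assoc] using this
  · rintro ⟨h1, h2, h3⟩
    refine ⟨(hm x).2 h1, ?_, fun q hq => ?_⟩
    · calc (g⁻¹ * x * g) * (g⁻¹ * x * g) = g⁻¹ * (x * x) * g := by group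
        _ = 1 := by rw [h2]; group
    · have hq' : g * q * g⁻¹ ∈ d.Q := (hm _).1 (by simpa [mul_assoc] using hq)
      calc q * (g⁻¹ * x * g) = g⁻¹ * ((g * q * g⁻¹) * x) * g := by group
        _ = g⁻¹ * (x * (g * q * g⁻¹)) * g := by rw [h3 _ hq']
        _ = g⁻¹ * x * g * q := by group

theorem cj_V {g : G} (hg : g ∈ d.H) : cj g d.V = d.V := d.cj_omega (d.cj_Q hg)

theorem cj_yy {X : Subgroup G} (hX : X ≤ d.P) (hn : d.P ≤ normalizer (X : Set G)) :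
    cj (d.y * d.y) X = X := by
  obtain ⟨p, hp, c, hc, e⟩ := d.y2
  rw [e, cj_mul, cj_eq_self_of_centralizer fun x hx => hc x (hX hx), cj_eq_self (hn hp)]

theorem PnQ : d.P ≤ normalizer (d.Q : Set G) := d.PH.trans d.Qn

theorem cj_y_Q' : cj d.y d.Q' = d.Q := by rw [← cj_mul, d.cj_yy d.QP d.PnQ]

theorem cj_y_V' : cj d.y d.V' = d.V := by
  rw [← cj_mul, d.cj_omega (d.cj_yy d.QP d.PnQ)]

theorem cj_yinv_Q : cj d.y⁻¹ d.Q = d.Q' := by
  rw [← cj_inj (g := d.y), ← cj_mul, mul_inv_cancel, cj_one, d.cj_y_Q']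

theorem cj_yinv_V : cj d.y⁻¹ d.V = d.V' := by
  rw [← cj_inj (g := d.y), ← cj_mul, mul_inv_cancel, cj_one, d.cj_y_V']

theorem Q'P : d.Q' ≤ d.P := (cj_mono _ d.QP).trans d.yP.le
theorem V'Q' : d.V' ≤ d.Q' := cj_mono _ d.VQ
theorem V'P : d.V' ≤ d.P := d.V'Q'.trans d.Q'P

theorem Q'_ne : d.Q' ≠ d.Q := fun h => d.Qne (d.noCore _ d.QP d.Qn h.le)

theorem mem_P_conj {x : G} : d.y⁻¹ * x * d.y ∈ d.P ↔ x ∈ d.P := by
  rw [← mem_cj, d.yP]

theorem two' {a : G} (ha : a ∈ d.P) (ha' : a ∉ d.Q') {b : G} (hb : b ∈ d.P) (hb' : b ∉ d.Q') :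
    a * b ∈ d.Q' := by
  rw [mem_cj] at ha' hb' ⊢
  rw [show d.y⁻¹ * (a * b) * d.y = (d.y⁻¹ * a * d.y) * (d.y⁻¹ * b * d.y) by group]
  exact d.two _ (d.mem_P_conj.2 ha) ha' _ (d.mem_P_conj.2 hb) hb'

theorem PnQ' : d.P ≤ normalizer (d.Q' : Set G) := by
  intro p hp
  apply mem_normalizer_of_cj
  have h : d.y⁻¹ * p * d.y ∈ normalizer (d.Q : Set G) := d.PnQ (d.mem_P_conj.2 hp)
  rw [← cj_mul, show p * d.y = d.y * (d.y⁻¹ * p * d.y) by group, cj_mul, cj_eq_self h]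

theorem PnV' : d.P ≤ normalizer (d.V' : Set G) := by
  intro p hp
  apply mem_normalizer_of_cj
  rw [← cj_mul, show p * d.y = d.y * (d.y⁻¹ * p * d.y) by group, cj_mul,
    d.cj_V (d.PH (d.mem_P_conj.2 hp))]

theorem HnV : d.H ≤ normalizer (d.V : Set G) := fun _ hg => mem_normalizer_of_cj (d.cj_V hg)

theorem P_le {X : Subgroup G} (hQ : d.Q ≤ X) {a : G} (ha : a ∈ d.P) (ha' : a ∉ d.Q) (haX : a ∈ X) :
    d.P ≤ X := by
  intro b hb
  by_cases hbQ : b ∈ d.Q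
  · exact hQ hbQ
  · have := mul_mem (inv_mem haX) (hQ (d.two a ha ha' b hb hbQ))
    rwa [inv_mul_cancel_left] at this

/-- Two conjugates of `P` generating `H`. -/
def Good (k : G) : Prop :=
  k ∈ d.H ∧ ∀ X : Subgroup G, d.P ≤ X → cj k d.P ≤ X → d.H ≤ X

theorem good_h : d.Good d.h := ⟨d.hmem, d.gen⟩

theorem good_inv {k : G} (hk : d.Good k) : d.Good k⁻¹ := by
  refine ⟨inv_mem hk.1, fun X h1 h2 => ?_⟩
  have := hk.2 (cj k X) (cj_le_iff.1 h2 |>.trans (le_of_eq (by rw [inv_inv]))) (cj_mono _ h1)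
  intro g hg
  have h3 := this (mul_mem (mul_mem hk.1 hg) (inv_mem hk.1))
  rwa [conj_mem_cj] at h3

theorem cj_P {a : G} (ha : a ∈ d.P) : cj a d.P = d.P := cj_eq_self (le_normalizer ha)

theorem good_mul {k a : G} (hk : d.Good k) (ha : a ∈ d.P) : d.Good (a * k) := by
  refine ⟨mul_mem (d.PH ha) hk.1, fun X h1 h2 => ?_⟩
  have := hk.2 X h1 (by
    intro x hx
    have h3 : a * x * a⁻¹ ∈ X := h2 (by rw [cj_mul]; exact conj_mem_cj.2 hx)
    have := mul_mem (mul_mem (inv_mem (h1 ha)) h3) (h1 ha)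
    simpa [mul_assoc] using this)
  exact this

theorem good_two {u : G} (hu : u ∈ d.P) (hu' : u ∉ d.Q) : d.Good ((u * d.h)⁻¹ * d.h) := by
  refine ⟨mul_mem (inv_mem (mul_mem (d.PH hu) d.hmem)) d.hmem, fun X h1 h2 => ?_⟩
  have := d.gen2 u hu hu' (cj (u * d.h) X)
    (by rw [le_cj_iff, ← cj_mul]; exact h2) (cj_mono _ h1)
  intro g hg
  have h3 := this (mul_mem (mul_mem (mul_mem (d.PH hu) d.hmem) hg)
    (inv_mem (mul_mem (d.PH hu) d.hmem)))
  rwa [conj_mem_cj] at h3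

end Cfg

end Cfsg.Agent.PushDihedral
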