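import Cfsg.Agent.PushDihedral.Walk

/-!
Pushing up: the critical distance is one.
-/

set_option autoImplicit false
set_option linter.unusedSectionVars false

open Subgroup
open scoped commutatorElement

namespace Cfsg.Agent.PushDihedral.Cfg

variable {G : Type*} [Group G] [Finite G] {d : Cfg G}

theorem V_le_Q' {b : ℕ} (h : Crit d b) (hb : 2 ≤ b) : d.V ≤ d.Q' := by
  have h' := h.minimal 1 1 d.y ((by simpa using step_edge (d := d) (one_mem _) (Or.inl rfl)) :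
    d.Step 1 d.y).walk (by omega)
  rwa [cj_one] at h'

theorem V'_le_Q {b : ℕ} (h : Crit d b) (hb : 2 ≤ b) : d.V' ≤ d.Q := by
  have := cj_mono d.y (V_le_Q' h hb)
  rwa [d.cj_y_Q'] at this

/-- The part of the critical pair that holds without knowing the transvection. -/
theorem crit_pair {b : ℕ} (h : Crit d (b + 1)) (hN : d.NoCentral) {g : G}
    (hw : d.Walk (b + 1) 1 g) (hne : ¬ d.V ≤ cj g d.Q) :
    ¬ cj g d.V ≤ d.Q ∧ ∃ a ∈ d.H, ∀ v ∈ d.V, v ∉ cj g d.Q →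
      g⁻¹ * v * g ∈ cj a d.P ∧ g⁻¹ * v * g ∉ d.Q := by
  obtain ⟨m, hm, hs⟩ := hw
  obtain ⟨a, ha, hQ, -⟩ := hs.symm.data
  have key : ∀ v ∈ d.V, v ∉ cj g d.Q →
      g⁻¹ * v * g ∈ cj a d.P ∧ g⁻¹ * v * g ∉ d.Q := by
    intro v hv hv'
    have h1 : v ∈ cj m d.Q := by
      have := h.minimal b 1 m hm (Nat.lt_succ_self b)
      rw [cj_one] at this
      exact this hv
    rw [hQ, mem_cj] at h1
    refine ⟨?_, fun hc => hv' (mem_cj.2 hc)⟩
    rw [mem_cj]
    have := d.Q'P h1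
    simpa [mul_assoc] using this
  refine ⟨fun hle => ?_, a, ha, key⟩
  obtain ⟨v, hv, hv'⟩ := SetLike.not_le_iff_exists.1 hne
  obtain ⟨hP, hQ'⟩ := key v hv hv'
  set v' := a⁻¹ * (g⁻¹ * v * g) * a with hv'def
  have hP' : v' ∈ d.P := mem_cj.1 hP
  have hQ'' : v' ∉ d.Q := by
    intro hc
    apply hQ'
    rw [← d.cj_Q ha, mem_cj]; exact hc
  obtain ⟨w, hw, hwne⟩ := not_centralizes hN hP' hQ''
  apply hwne
  have hwV : g * a * w * (g * a)⁻¹ ∈ cj g d.V := by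
    rw [← d.cj_V ha, ← cj_mul]; exact conj_mem_cj.2 hw
  have hc := d.comm_VQ hv (hle hwV)
  calc w * v' = (g * a)⁻¹ * ((g * a * w * (g * a)⁻¹) * v) * (g * a) := by rw [hv'def]; group
    _ = v' * w := by rw [hc, hv'def]; group

/-- The critical commutator. -/
theorem crit_comm (hT : Trans d) {b : ℕ} (h : Crit d (b + 1)) {g0 g1 gb a : G} (ha : a ∈ d.H)
    (h1 : cj g1 d.Q = cj (g0 * a) d.Q') (hw : d.Walk b g1 gb) (hw0 : d.Walk (b + 1) g0 gb)
    (hne : ¬ cj g0 d.V ≤ cj gb d.Q) {v w : G} (hv : v ∈ cj g0 d.V) (hv' : v ∉ cj gb d.Q)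
    (hwm : w ∈ cj gb d.V) (hw' : w ∉ cj g0 d.Q) :
    ⁅v, w⁆ = g0 * a * z hT * (g0 * a)⁻¹ := by
  set k := g0 * a with hk
  have hV0 : cj k d.V = cj g0 d.V := (data_mul ha g0).2
  have hQ0 : cj k d.Q = cj g0 d.Q := (data_mul ha g0).1
  rw [← hV0, mem_cj] at hv
  have hwQ1 : w ∈ cj g1 d.Q := h.minimal b gb g1 hw.symm (Nat.lt_succ_self b) hwm
  rw [h1, mem_cj] at hwQ1
  rw [← hQ0, mem_cj] at hw'
  -- `v` is outside `Z`
  have hvZ : k⁻¹ * v * k ∉ d.Z := by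
    intro hZ
    have hcm : v * w = w * v := by
      calc v * w = k * ((k⁻¹ * v * k) * (k⁻¹ * w * k)) * k⁻¹ := by group
        _ = w * v := by rw [← hZ.2 _ (d.Q'P hwQ1)]; group
    -- `v` moves `V` at the far end
    have hh : d.Walk (b + 1) 1 (k⁻¹ * gb) := by
      have := (hw0.mul_right' ha).mul_left k⁻¹
      rwa [← hk, inv_mul_cancel] at this
    have hne' : ¬ d.V ≤ cj (k⁻¹ * gb) d.Q := by
      rw [cj_mul, le_cj_iff, inv_inv, hV0]; exact hne
    have hvb : k⁻¹ * v * k ∉ cj (k⁻¹ * gb) d.Q := by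
      rw [mem_cj]; rw [mem_cj] at hv'; simpa [mul_assoc] using hv'
    obtain ⟨c, hc, hcall⟩ := (crit_pair h hT.noCentral hh hne').2
    obtain ⟨hcP, hcQ⟩ := hcall _ hv hvb
    -- the centraliser of `v` in the far module
    set v1 := c⁻¹ * ((k⁻¹ * gb)⁻¹ * (k⁻¹ * v * k) * (k⁻¹ * gb)) * c with hv1
    have hv1P : v1 ∈ d.P := mem_cj.1 hcP
    have hv1Q : v1 ∉ d.Q := fun hcc => hcQ (by rw [← d.cj_Q hc, mem_cj]; exact hcc)
    set w1 := c⁻¹ * (gb⁻¹ * w * gb) * c with hw1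
    have hw1V : w1 ∈ d.V := (mem_normalizer_iff''.1 (d.HnV hc) _).1 (mem_cj.1 hwm)
    have hw1Z : w1 ∈ d.Z := by
      refine mem_Z_of_comm hT hv1P hv1Q hw1V ?_
      calc w1 * v1 = c⁻¹ * gb⁻¹ * (w * v) * gb * c := by rw [hw1, hv1]; group
        _ = v1 * w1 := by rw [← hcm, hw1, hv1]; group
    -- everything in `V_gb` then lies in the centraliser of `v`
    have hall : cj gb d.V ≤ centralizer {v} := by
      intro x hx
      rw [mem_centralizer_singleton_iff]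
      by_cases hxQ : x ∈ cj k d.Q
      · have := d.comm_VQ hv (mem_cj.1 hxQ)
        calc x * v = k * ((k⁻¹ * x * k) * (k⁻¹ * v * k)) * k⁻¹ := by group
          _ = v * x := by rw [this]; group
      · have hxQ1 : x ∈ cj g1 d.Q := h.minimal b gb g1 hw.symm (Nat.lt_succ_self b) hx
        rw [h1, mem_cj] at hxQ1
        calc x * v = k * ((k⁻¹ * x * k) * (k⁻¹ * v * k)) * k⁻¹ := by group
          _ = v * x := by rw [hZ.2 _ (d.Q'P hxQ1)]; group
    obtain ⟨x, hx, hxne⟩ := not_centralizes hT.noCentral hv1P hv1Q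
    apply hxne
    have hxV : gb * c * x * (gb * c)⁻¹ ∈ cj gb d.V := by
      rw [← d.cj_V hc, ← cj_mul]; exact conj_mem_cj.2 hx
    have := mem_centralizer_singleton_iff.1 (hall hxV)
    calc x * v1 = (gb * c)⁻¹ * ((gb * c * x * (gb * c)⁻¹) * v) * (gb * c) := by rw [hv1]; group
      _ = v1 * x := by rw [this, hv1]; group
  have := z_spec hT hv hvZ (d.Q'P hwQ1) hw'
  calc ⁅v, w⁆ = k * ⁅k⁻¹ * v * k, k⁻¹ * w * k⁆ * k⁻¹ := by
        simp only [commutatorElement_def]; group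
    _ = k * z hT * k⁻¹ := by rw [this]

theorem trans_of_crit {b : ℕ} (h : Crit d (b + 2)) (hN : d.NoCentral) : Trans d := by
  obtain ⟨g, hw, hne⟩ := h.exists_walk
  obtain ⟨hne', c, hc, hpair⟩ := crit_pair h hN hw hne
  obtain ⟨u, hu, hu'⟩ := SetLike.not_le_iff_exists.1 hne'
  obtain ⟨g1, hs1, hw1⟩ := Walk.first hw
  obtain ⟨a, ha, hQ, -⟩ := hs1.data
  rw [one_mul] at hQ
  have huQ : u ∈ cj a d.Q' := hQ ▸ h.minimal (b + 1) g g1 hw1.symm (Nat.lt_succ_self _) hu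
  refine ⟨hN, a⁻¹ * u * a, d.Q'P (mem_cj.1 huQ), fun hc => hu' (by
    rw [← d.cj_Q ha, mem_cj]; exact hc), fun v hv w hw hvne hwne => ?_⟩
  -- transport to `u`
  have hP : ∀ v ∈ d.V, v * (a⁻¹ * u * a) ≠ (a⁻¹ * u * a) * v → a * v * a⁻¹ ∈ d.V ∧
      ∀ g', cj g' d.V = cj g d.V → a * v * a⁻¹ ∉ cj g' d.Q := by
    intro v hv hne
    refine ⟨(mem_normalizer_iff.1 (d.HnV ha) v).1 hv, fun g' hg' hc => hne ?_⟩
    have hu'' : u ∈ cj g' d.V := hg' ▸ hu
    rw [mem_cj] at hc hu''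
    have := d.comm_VQ hu'' hc
    calc v * (a⁻¹ * u * a) = a⁻¹ * g' * ((g'⁻¹ * (a * v * a⁻¹) * g') * (g'⁻¹ * u * g')) * g'⁻¹ * a := by
          group
      _ = (a⁻¹ * u * a) * v := by rw [this]; group
  obtain ⟨hvV, hvg⟩ := hP v hv hvne
  obtain ⟨hwV, hwg⟩ := hP w hw hwne
  obtain ⟨hvP, hvQ⟩ := hpair _ hvV (hvg g rfl)
  obtain ⟨hwP, hwQ⟩ := hpair _ hwV (hwg g rfl)
  -- the product lies in `Q` at the far end
  have hQc : ∀ x, x ∉ d.Q → c⁻¹ * x * c ∉ d.Q := fun x hx hxc => hx (by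
    rw [← d.cj_Q hc, mem_cj]; exact hxc)
  have hmem := d.two _ (mem_cj.1 hvP) (hQc _ hvQ) _ (mem_cj.1 hwP) (hQc _ hwQ)
  have hprod : g⁻¹ * (a * (v * w) * a⁻¹) * g ∈ d.Q := by
    rw [← d.cj_Q hc, mem_cj]
    convert hmem using 1
    group
  have := d.comm_VQ (mem_cj.1 hu) hprod
  calc v * w * (a⁻¹ * u * a)
      = a⁻¹ * g * ((g⁻¹ * (a * (v * w) * a⁻¹) * g) * (g⁻¹ * u * g)) * g⁻¹ * a := by group
    _ = a⁻¹ * u * a * (v * w) := by rw [this]; group

theorem crit_symm {b : ℕ} (h : Crit d (b + 1)) (hN : d.NoCentral) {g0 gb : G}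
    (hw : d.Walk (b + 1) g0 gb) (hne : ¬ cj g0 d.V ≤ cj gb d.Q) :
    ¬ cj gb d.V ≤ cj g0 d.Q := by
  intro hle
  have hh := hw.mul_left g0⁻¹
  rw [inv_mul_cancel] at hh
  apply (crit_pair h hN hh (fun h' => hne (by
    have := cj_mono g0 h'
    rwa [← cj_mul, mul_inv_cancel_left] at this))).1
  have := cj_mono g0⁻¹ hle
  rwa [← cj_mul, ← cj_mul, inv_mul_cancel, cj_one] at this

/-- A critical pair with chosen first and last steps. -/
structure Norm (d : Cfg G) (b : ℕ) (g g1 m : G) : Prop where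
  first : d.Step 1 g1
  first_Q : cj g1 d.Q = d.Q'
  first_V : cj g1 d.V = d.V'
  rest : d.Walk (b + 1) g1 g
  init : d.Walk (b + 1) 1 m
  last : d.Step m g
  crit : ¬ d.V ≤ cj g d.Q

theorem exists_norm {b : ℕ} {g0 m g : G} (hw : d.Walk (b + 1) g0 m) (hs : d.Step m g)
    (hne : ¬ cj g0 d.V ≤ cj g d.Q) :
    ∃ k g1, (∃ a ∈ d.H, k = (g0 * a)⁻¹) ∧ Norm d b (k * g) g1 (k * m) := by
  obtain ⟨g1, hs1, hw1⟩ := Walk.first (n := b + 1) ⟨m, hw, hs⟩
  obtain ⟨a, ha, hQ, hV⟩ := hs1.data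
  refine ⟨(g0 * a)⁻¹, (g0 * a)⁻¹ * g1, ⟨a, ha, rfl⟩, ⟨?_, ?_, ?_, hw1.mul_left _, ?_,
    hs.mul_left _, ?_⟩⟩
  · simpa using (hs1.mul_left (g0 * a)⁻¹).mul_right' ha
  · rw [cj_mul, hQ, ← cj_mul, inv_mul_cancel, cj_one]
  · rw [cj_mul, hV, ← cj_mul, inv_mul_cancel, cj_one]
  · simpa using (hw.mul_left (g0 * a)⁻¹).mul_right' ha
  · intro hc
    apply hne
    have := cj_mono (g0 * a) hc
    rwa [← cj_mul, mul_inv_cancel_left, (data_mul ha g0).2] at this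

theorem Norm.walk {b : ℕ} {g g1 m : G} (hn : Norm d b g g1 m) : d.Walk (b + 2) 1 g :=
  ⟨m, hn.init, hn.last⟩

/-- `V` and a neighbouring conjugate do not generate a normal subgroup. -/
theorem sup_not_normal (hT : Trans d) (hVQ' : d.V ≤ d.Q') {k : G} (hk : k ∈ d.H) :
    ¬ d.H ≤ normalizer ((d.V ⊔ cj k d.V' : Subgroup G) : Set G) := by
  intro hnor
  set A := cj k d.V' with hA
  have hV'Q : d.V' ≤ d.Q := by
    have := cj_mono d.y hVQ'
    rwa [d.cj_y_Q'] at this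
  have hAQ : A ≤ d.Q := by
    rw [hA, ← d.cj_Q hk]; exact cj_mono k hV'Q
  have hV1 : d.V ≠ ⊥ := omega_ne_bot (d.pgroup.to_le d.QP) d.Qne
  obtain ⟨a, haA, haV⟩ : ∃ a ∈ A, a ∉ d.V := by
    by_contra hc
    push Not at hc
    apply hV1
    refine d.noCore _ d.VP d.HnV ?_
    have h := cj_mono k⁻¹ (show A ≤ d.V from hc)
    rwa [hA, ← cj_mul, inv_mul_cancel, cj_one, d.cj_V (inv_mem hk)] at h
  have hkZ : cj k d.Z ≤ d.V := (cj_mono k inf_le_left).trans (d.cj_V hk).le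
  have hA2 : ∀ x ∈ A, x ∈ d.V ∨ x * a ∈ d.V := by
    intro x hx
    by_cases hxV : x ∈ d.V
    · exact Or.inl hxV
    · refine Or.inr (hkZ ?_)
      have hm : ∀ w ∈ A, (k * d.y)⁻¹ * w * (k * d.y) ∈ d.V := fun w hw => by
        rw [← mem_cj, cj_mul]; exact hw
      have hn : ∀ w, w ∉ d.V → (k * d.y)⁻¹ * w * (k * d.y) ∉ d.Z := fun w hw h => hw (hkZ (by
        rw [← cj_y_Z hT.noCentral, ← cj_mul, mem_cj]; exact h))
      rw [← cj_y_Z hT.noCentral, ← cj_mul, mem_cj,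
        show (k * d.y)⁻¹ * (x * a) * (k * d.y) =
          ((k * d.y)⁻¹ * x * (k * d.y)) * ((k * d.y)⁻¹ * a * (k * d.y)) by group]
      exact Z_index hT (hm x hx) (hm a haA) (hn x hxV) (hn a haV)
  have ha2 : a * a = 1 := by
    rw [hA, mem_cj] at haA
    have haA' := mem_cj.1 haA
    have h2 := d.sq_V haA'
    calc a * a = (k * d.y) * ((d.y⁻¹ * (k⁻¹ * a * k) * d.y) * (d.y⁻¹ * (k⁻¹ * a * k) * d.y)) *
          (k * d.y)⁻¹ := by group
      _ = 1 := by rw [h2]; group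
  have hac : ∀ v ∈ d.V, a * v = v * a := fun v hv => d.comm_VQ hv (hAQ haA)
  let F : Subgroup G :=
    { carrier := {x | x ∈ d.V ∨ x * a ∈ d.V}
      one_mem' := Or.inl (one_mem _)
      mul_mem' := fun {x w} hx hw => by
        rcases hx with hx | hx <;> rcases hw with hw | hw
        · exact Or.inl (mul_mem hx hw)
        · exact Or.inr (by rw [mul_assoc]; exact mul_mem hx hw)
        · refine Or.inr ?_
          rw [mul_assoc, ← hac w hw, ← mul_assoc]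
          exact mul_mem hx hw
        · refine Or.inl ?_
          have := mul_mem hx hw
          rwa [show x * a * (w * a) = x * (a * (w * a)) by group, hac _ hw, mul_assoc w a a, ha2,
            mul_one] at this
      inv_mem' := fun {x} hx => by
        rcases hx with hx | hx
        · exact Or.inl (inv_mem hx)
        · refine Or.inr ?_
          have h := inv_mem hx
          have e : x⁻¹ = a * (x * a)⁻¹ := by group
          rw [e, hac _ h, mul_assoc, ha2, mul_one]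
          exact h }
  have hF : d.V ⊔ A ≤ F := sup_le (fun v hv => Or.inl hv) hA2
  -- conjugates of `a`
  have hconj : ∀ g ∈ d.H, g * a * g⁻¹ * a ∈ d.V := by
    intro g hg
    rcases hF ((mem_normalizer_iff.1 (hnor hg) a).1 (mem_sup_right haA)) with h | h
    · exact absurd ((mem_normalizer_iff.1 (d.HnV hg) a).2 h) haV
    · exact h
  set R₀ := d.Q ⊓ cj k d.Q' with hR₀
  have haR : ∀ q ∈ R₀, q * a = a * q := by
    intro q hq
    have h1 := mem_cj.1 hq.2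
    rw [mem_cj] at h1
    rw [hA, mem_cj] at haA
    have h := d.comm_VQ (mem_cj.1 haA) h1
    calc q * a = (k * d.y) * ((d.y⁻¹ * (k⁻¹ * q * k) * d.y) * (d.y⁻¹ * (k⁻¹ * a * k) * d.y)) *
          (k * d.y)⁻¹ := by group
      _ = a * q := by rw [h]; group
  have hall : ∀ g ∈ d.H, ∀ q ∈ R₀, (g * q * g⁻¹) * a = a * (g * q * g⁻¹) := by
    intro g hg q hq
    set v := g * a * g⁻¹ * a with hv
    have hvV : v ∈ d.V := hconj g hg
    have hga : a = (g * a * g⁻¹)⁻¹ * v := by rw [hv]; group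
    have h1 : (g * q * g⁻¹) * (g * a * g⁻¹)⁻¹ = (g * a * g⁻¹)⁻¹ * (g * q * g⁻¹) := by
      have := haR q hq
      calc (g * q * g⁻¹) * (g * a * g⁻¹)⁻¹ = g * a⁻¹ * (a * q) * a⁻¹ * g⁻¹ := by group
        _ = (g * a * g⁻¹)⁻¹ * (g * q * g⁻¹) := by rw [← this]; group
    have hgq : g * q * g⁻¹ ∈ d.Q := (mem_normalizer_iff.1 (d.Qn hg) q).1 hq.1
    have h2 := d.comm_VQ hvV hgq
    rw [hga, ← mul_assoc, h1, mul_assoc, h2, ← mul_assoc]
  -- the index two property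
  have hidx : ∀ q ∈ d.Q, ∀ w ∈ d.Q, q ∉ R₀ → w ∉ R₀ → q * w ∈ R₀ := by
    intro q hq w hw hq' hw'
    have hq1 : k⁻¹ * q * k ∈ d.P := d.QP ((mem_normalizer_iff''.1 (d.Qn hk) q).1 hq)
    have hw1 : k⁻¹ * w * k ∈ d.P := d.QP ((mem_normalizer_iff''.1 (d.Qn hk) w).1 hw)
    refine ⟨mul_mem hq hw, mem_cj.2 ?_⟩
    rw [show k⁻¹ * (q * w) * k = (k⁻¹ * q * k) * (k⁻¹ * w * k) by group]
    exact d.two' hq1 (fun h => hq' ⟨hq, mem_cj.2 h⟩) hw1 (fun h => hw' ⟨hw, mem_cj.2 h⟩)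
  by_cases hex : ∃ g ∈ d.H, ∃ q ∈ R₀, g * q * g⁻¹ ∉ R₀
  · obtain ⟨g, hg, q, hq, hgq⟩ := hex
    apply haV
    refine ⟨hAQ haA, ha2, fun w hw => ?_⟩
    by_cases hwR : w ∈ R₀
    · exact haR w hwR
    · have hgqQ : g * q * g⁻¹ ∈ d.Q := (mem_normalizer_iff.1 (d.Qn hg) q).1 hq.1
      have h1 := haR _ (hidx w hw _ hgqQ hwR hgq)
      have h2 := hall g hg q hq
      apply mul_right_cancel (b := g * q * g⁻¹)
      calc w * a * (g * q * g⁻¹) = w * (g * q * g⁻¹) * a := by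
            rw [mul_assoc w a, ← h2]; group
        _ = a * w * (g * q * g⁻¹) := by rw [h1]; group
  · push Not at hex
    apply hV1
    have hRbot : d.R = ⊥ := by
      refine d.noCore _ (inf_le_left.trans d.QP) (fun g hg => ?_) ?_
      · apply mem_normalizer_of_cj
        have key : ∀ g ∈ d.H, cj g d.R ≤ d.R := by
          intro g hg x hx
          rw [mem_cj] at hx
          have h1 : k * (g⁻¹ * x * g) * k⁻¹ ∈ R₀ :=
            ⟨(mem_normalizer_iff.1 (d.Qn hk) _).1 hx.1, conj_mem_cj.2 hx.2⟩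
          have h2 := hex (k * g * k⁻¹) (mul_mem (mul_mem hk hg) (inv_mem hk)) _ h1
          have h3 : k * x * k⁻¹ ∈ R₀ := by convert h2 using 1; group
          exact ⟨(mem_normalizer_iff.1 (d.Qn hk) x).2 h3.1, conj_mem_cj.1 h3.2⟩
        refine le_antisymm (key g hg) (le_cj_iff.2 (key g⁻¹ (inv_mem hg)))
      · intro x hx
        rw [mem_cj] at hx
        refine ⟨?_, mem_cj.2 hx.1⟩
        show x ∈ d.Q
        rw [← d.cj_y_Q', mem_cj]; exact hx.2
    exact le_bot_iff.1 ((le_inf d.VQ hVQ').trans hRbot.le)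

/-- The neighbour on another side starts a critical pair with the penultimate vertex. -/
theorem other_crit (hT : Trans d) {b : ℕ} (h : Crit d (b + 2)) {g g1 m : G} (hn : Norm d b g g1 m)
    {k : G} (hk : d.Good k) : ¬ cj k d.V' ≤ cj m d.Q := by
  intro hA
  have hne' := crit_symm h hT.noCentral hn.walk (by rw [cj_one]; exact hn.crit)
  rw [cj_one] at hne'
  obtain ⟨u, hu, hu'⟩ := SetLike.not_le_iff_exists.1 hne'
  have huP : u ∈ d.P := by
    apply d.Q'P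
    rw [← hn.first_Q]
    exact h.minimal (b + 1) g g1 hn.rest.symm (Nat.lt_succ_self _) hu
  obtain ⟨c, hc, hQm, -⟩ := hn.last.symm.data
  -- commutators of `u` with `cj k V'`
  obtain ⟨v, hv, hv'⟩ := SetLike.not_le_iff_exists.1 hn.crit
  have hz1 := crit_comm hT h (g0 := 1) (a := 1) (one_mem _) (by rw [one_mul, cj_one, hn.first_Q])
    hn.rest hn.walk (by rw [cj_one]; exact hn.crit) (by rwa [cj_one]) hv' hu (by rwa [cj_one])
  simp only [one_mul, inv_one, mul_one] at hz1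
  have hne0 : ¬ cj g d.V ≤ cj (1 : G) d.Q := by rwa [cj_one]
  have hz2 := crit_comm hT h (g0 := g) (g1 := m) (a := c) hc hQm hn.init.symm hn.walk.symm hne0 hu
    (by rwa [cj_one]) (by rwa [cj_one]) hv'
  have hzz : g * c * z hT * (g * c)⁻¹ = z hT := by
    rw [← hz2, ← commutatorElement_inv, hz1, z_inv]
  have hcomm : ∀ x ∈ cj k d.V', ⁅u, x⁆ ∈ d.V := by
    intro x hx
    have hxm : x ∈ cj (g * c) d.Q' := hQm ▸ hA hx
    rw [← (data_mul hc g).2, mem_cj] at hu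
    rw [mem_cj] at hxm
    have e : ⁅u, x⁆ = g * c * ⁅(g * c)⁻¹ * u * (g * c), (g * c)⁻¹ * x * (g * c)⁆ * (g * c)⁻¹ := by
      simp only [commutatorElement_def]; group
    rw [e]
    by_cases hxQ : (g * c)⁻¹ * x * (g * c) ∈ d.Q
    · rw [show ⁅(g * c)⁻¹ * u * (g * c), (g * c)⁻¹ * x * (g * c)⁆ = 1 from
        commutatorElement_eq_one_iff_mul_comm.2 (d.comm_VQ hu hxQ).symm]
      simp
    · by_cases huZ : (g * c)⁻¹ * u * (g * c) ∈ d.Z
      · rw [show ⁅(g * c)⁻¹ * u * (g * c), (g * c)⁻¹ * x * (g * c)⁆ = 1 from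
          commutatorElement_eq_one_iff_mul_comm.2 (huZ.2 _ (d.Q'P hxm)).symm]
        simp
      · rw [z_spec hT hu huZ (d.Q'P hxm) hxQ, hzz]
        exact (z_mem hT).1
  refine sup_not_normal hT (V_le_Q' h (by omega)) hk.1 ?_
  set F := d.V ⊔ cj k d.V' with hF
  have hkP : cj k d.P ≤ normalizer (F : Set G) := by
    intro x hx
    apply mem_normalizer_of_cj
    rw [hF, show cj x (d.V ⊔ cj k d.V') = cj x d.V ⊔ cj x (cj k d.V') from map_sup _ _ _,
      d.cj_V (by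
        rw [show x = k * (k⁻¹ * x * k) * k⁻¹ by group]
        exact mul_mem (mul_mem hk.1 (d.PH (mem_cj.1 hx))) (inv_mem hk.1)),
      show cj x (cj k d.V') = cj k d.V' by
        rw [← cj_mul, show x * k = k * (k⁻¹ * x * k) by group, cj_mul,
          cj_eq_self (d.PnV' (mem_cj.1 hx))]]
  have hQn : d.Q ≤ normalizer (F : Set G) := by
    refine le_trans ?_ hkP
    conv_lhs => rw [← d.cj_Q hk.1]
    exact cj_mono k d.QP
  have hun : u ∈ normalizer (F : Set G) := by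
    apply mem_normalizer_of_cj
    have key : cj u F ≤ F := by
      rw [hF, show cj u (d.V ⊔ cj k d.V') = cj u d.V ⊔ cj u (cj k d.V') from map_sup _ _ _,
        d.cj_V (d.PH huP)]
      refine sup_le le_sup_left ?_
      rintro _ ⟨x, hx, rfl⟩
      show u * x * u⁻¹ ∈ _
      rw [show u * x * u⁻¹ = ⁅u, x⁆ * x by rw [commutatorElement_def]; group]
      exact mul_mem (mem_sup_left (hcomm x hx)) (mem_sup_right hx)
    exact eq_of_le_of_card_ge key (card_map_of_injective (MulAut.conj u).injective).ge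
  exact hk.2 _ (d.P_le hQn huP hu' hun) hkP

theorem yy_conj_Z {x : G} (hN : d.NoCentral) (hx : x ∈ d.Z) :
    d.y * d.y * x * (d.y * d.y)⁻¹ = x := by
  obtain ⟨p, hp, c, hc, e⟩ := d.y2
  have hxP : x ∈ d.P := ((mem_Z hN).1 hx).1
  rw [e]
  calc p * c * x * (p * c)⁻¹ = p * (c * x) * c⁻¹ * p⁻¹ := by group
    _ = p * x * p⁻¹ := by rw [← hc x hxP]; group
    _ = x := by rw [hx.2 p hp, mul_inv_cancel_right]

/-- The commutator of the shifted pair, seen from the penultimate vertex. -/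
theorem far_eq (hT : Trans d) {b : ℕ} (h : Crit d (b + 2)) {g g1 m : G} (hn : Norm d b g g1 m)
    {k : G} (hk : d.Good k) {m' a : G} (hm' : d.Walk b 1 m') (ha : a ∈ d.H)
    (hQ : cj m' d.Q = cj (m * a) d.Q') :
    k * (d.y * z hT * d.y⁻¹) * k⁻¹ = m * a * z hT * (m * a)⁻¹ ∧
      k * (d.y * z hT * d.y⁻¹) * k⁻¹ ∈ cj m d.V := by
  have hs : d.Step (k * d.y) 1 := (step_edge hk.1 (Or.inl rfl)).symm
  have hne : ¬ cj (k * d.y) d.V ≤ cj m d.Q := by
    rw [cj_mul]; exact other_crit hT h hn hk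
  have hw0 : d.Walk (b + 2) (k * d.y) m := Walk.prepend hs hn.init
  have hne' := crit_symm h hT.noCentral hw0 hne
  obtain ⟨v, hv, hv'⟩ := SetLike.not_le_iff_exists.1 hne
  obtain ⟨w, hw, hw'⟩ := SetLike.not_le_iff_exists.1 hne'
  have h1 := crit_comm hT h (g0 := k * d.y) (g1 := 1) (a := 1) (one_mem _)
    (by rw [mul_one, cj_one, cj_mul, d.cj_y_Q', d.cj_Q hk.1]) hn.init hw0 hne hv hv' hw hw'
  have h2 := crit_comm hT h (g0 := m) (g1 := m') ha hQ (Walk.prepend hs hm').symm hw0.symm hne' hw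
    hw' hv hv'
  have e : m * a * z hT * (m * a)⁻¹ = k * (d.y * z hT * d.y⁻¹) * k⁻¹ := by
    have h3 : (m * a * z hT * (m * a)⁻¹)⁻¹ = k * d.y * 1 * z hT * (k * d.y * 1)⁻¹ := by
      rw [← h1, ← h2, commutatorElement_inv]
    calc m * a * z hT * (m * a)⁻¹ = (m * a * z hT * (m * a)⁻¹)⁻¹ := by
          conv_lhs => rw [← z_inv hT]
          group
      _ = k * (d.y * z hT * d.y⁻¹) * k⁻¹ := by rw [h3]; group
  refine ⟨e.symm, ?_⟩
  rw [← e, ← d.cj_V ha, ← cj_mul]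
  exact conj_mem_cj.2 (z_mem hT).1

theorem c_mem (hT : Trans d) {b : ℕ} (h : Crit d (b + 2)) {g g1 m : G} (hn : Norm d b g g1 m) :
    d.y * z hT * d.y⁻¹ ∈ d.C := by
  by_contra hc
  obtain ⟨m', hm', hs'⟩ := hn.init
  obtain ⟨a, ha, hQ, -⟩ := hs'.symm.data
  obtain ⟨-, hV⟩ := far_eq hT h hn d.good_h hm' ha hQ
  set c := d.y * z hT * d.y⁻¹ with hcdef
  set z' := d.h * c * d.h⁻¹ with hz'
  have hcZ : c ∈ d.Z := by rw [hcdef, ← cj_y_Z hT.noCentral]; exact conj_mem_cj.2 (z_mem hT)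
  have hz'V : z' ∈ d.V := (mem_normalizer_iff.1 (d.HnV d.hmem) c).1 hcZ.1
  have hz'Z : z' ∉ d.Z := fun h' => hc (by
    have hC := mem_C hT d.good_h h' (conj_mem_cj.2 hcZ)
    have e := hC.2 d.h d.hmem
    exact (show z' = c from mul_left_cancel (a := d.h) (by rw [e, hz']; group)) ▸ hC)
  have hV' : cj m d.V ≤ cj g d.Q := h.minimal 1 m g hn.last.walk (by omega)
  have hV1 : cj g1 d.V ≤ cj g d.Q := h.minimal (b + 1) g1 g hn.rest (Nat.lt_succ_self _)
  rw [hn.first_V] at hV1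
  have hZV' : d.Z ≤ d.V' := by
    rw [← cj_y_Z hT.noCentral]; exact cj_mono _ inf_le_left
  apply hn.crit
  intro v hv
  rcases V_cases hT hz'V hz'Z hv with hvZ | hvZ
  · exact hV1 (hZV' hvZ)
  · have h2 := mul_mem (hV1 (hZV' hvZ)) (inv_mem (hV' hV))
    rwa [mul_inv_cancel_right] at h2

theorem c_eq_of_norm (hT : Trans d) {b : ℕ} (h : Crit d (b + 2)) {g g1 m : G}
    (hn : Norm d b g g1 m) {m' : G} (hm' : d.Walk b 1 m') (hs : d.Step m' m) :
    d.y * z hT * d.y⁻¹ = m' * (d.y * z hT * d.y⁻¹) * m'⁻¹ := by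
  have hc := c_mem hT h hn
  set c := d.y * z hT * d.y⁻¹ with hcdef
  obtain ⟨a, ha, e, he, r, hr, hm'eq⟩ := hs.symm
  have hQ : cj m' d.Q = cj (m * a) d.Q' := by
    rw [hm'eq, (data_mul hr _).1, cj_mul, cj_edge_Q he]
  obtain ⟨h1, -⟩ := far_eq hT h hn d.good_h hm' ha hQ
  rw [← hcdef] at h1
  have hfix : d.h * c * d.h⁻¹ = c := by rw [hc.2 d.h d.hmem, mul_inv_cancel_right]
  rw [hfix] at h1
  have hr' : r * c * r⁻¹ = c := by rw [hc.2 r hr, mul_inv_cancel_right]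
  have he' : e * c * e⁻¹ = z hT := by
    rcases he with rfl | rfl
    · rw [hcdef]
      calc d.y * (d.y * z hT * d.y⁻¹) * d.y⁻¹ = d.y * d.y * z hT * (d.y * d.y)⁻¹ := by group
        _ = z hT := yy_conj_Z hT.noCentral (z_mem hT)
    · rw [hcdef]; group
  rw [hm'eq]
  calc c = m * a * z hT * (m * a)⁻¹ := h1
    _ = m * a * (e * (r * c * r⁻¹) * e⁻¹) * (m * a)⁻¹ := by rw [hr', he']
    _ = _ := by group

theorem c_eq (hT : Trans d) {b : ℕ} (h : Crit d (b + 2)) (hc : d.y * z hT * d.y⁻¹ ∈ d.C)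
    {g0 m' m g : G} (hm' : d.Walk b g0 m') (hs : d.Step m' m) (hs' : d.Step m g)
    (hne : ¬ cj g0 d.V ≤ cj g d.Q) :
    g0 * (d.y * z hT * d.y⁻¹) * g0⁻¹ = m' * (d.y * z hT * d.y⁻¹) * m'⁻¹ := by
  obtain ⟨k, g1, ⟨a, ha, rfl⟩, hn⟩ := exists_norm ⟨m', hm', hs⟩ hs' hne
  have hw : d.Walk b 1 ((g0 * a)⁻¹ * m') := by
    simpa using (hm'.mul_left (g0 * a)⁻¹).mul_right' ha
  have h1 := c_eq_of_norm hT h hn hw (hs.mul_left _)
  set c := d.y * z hT * d.y⁻¹
  have ha' : a * c * a⁻¹ = c := by rw [hc.2 a ha, mul_inv_cancel_right]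
  calc g0 * c * g0⁻¹ = g0 * (a * c * a⁻¹) * g0⁻¹ := by rw [ha']
    _ = g0 * a * c * (g0 * a)⁻¹ := by group
    _ = g0 * a * ((g0 * a)⁻¹ * m' * c * ((g0 * a)⁻¹ * m')⁻¹) * (g0 * a)⁻¹ := by rw [← h1]
    _ = m' * c * m'⁻¹ := by group

theorem no_crit_ge_three (hT : Trans d) {b : ℕ} (h : Crit d (b + 3)) : False := by
  obtain ⟨g, ⟨m0, hm0, hs0⟩, hne⟩ := h.exists_walk
  obtain ⟨k, g1, -, hn⟩ := exists_norm (g0 := 1) hm0 hs0 (by rwa [cj_one])
  have hc := c_mem hT h hn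
  obtain ⟨m', hm', hs'⟩ := hn.init
  obtain ⟨m'', hm'', hs''⟩ := hm'
  obtain ⟨u, hu, hu', -⟩ := hT.exists_u
  set c := d.y * z hT * d.y⁻¹ with hcdef
  have key : ∀ j, d.Good j → j * z hT * j⁻¹ = m'' * c * m''⁻¹ := by
    intro j hj
    have hs : d.Step (j * d.y) 1 := (step_edge hj.1 (Or.inl rfl)).symm
    have hne' : ¬ cj (j * d.y) d.V ≤ cj (k * m0) d.Q := by
      rw [cj_mul]; exact other_crit hT h hn hj
    rw [← c_eq hT h hc (Walk.prepend hs hm'') hs'' hs' hne']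
    have e : d.y * c * d.y⁻¹ = z hT := by
      rw [hcdef]
      calc d.y * (d.y * z hT * d.y⁻¹) * d.y⁻¹ = d.y * d.y * z hT * (d.y * d.y)⁻¹ := by group
        _ = z hT := yy_conj_Z hT.noCentral (z_mem hT)
    calc j * z hT * j⁻¹ = j * (d.y * c * d.y⁻¹) * j⁻¹ := by rw [e]
      _ = _ := by rw [hcdef]; group
  have h1 := key _ d.good_h
  have h2 := key _ (d.good_mul d.good_h hu)
  apply cj_z_notMem_Z hT d.good_h
  refine mem_Z_of_comm hT hu hu' ((mem_normalizer_iff.1 (d.HnV d.hmem) _).1 (z_mem hT).1) ?_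
  have e : u * (d.h * z hT * d.h⁻¹) * u⁻¹ = d.h * z hT * d.h⁻¹ := by
    calc u * (d.h * z hT * d.h⁻¹) * u⁻¹ = u * d.h * z hT * (u * d.h)⁻¹ := by group
      _ = _ := by rw [h2, h1]
  exact (mul_inv_eq_iff_eq_mul.1 e).symm

theorem no_crit_two (hT : Trans d) (h : Crit d 2) : False := by
  obtain ⟨g, ⟨m0, hm0, hs0⟩, hne⟩ := h.exists_walk
  obtain ⟨k0, g1, -, hn⟩ := exists_norm (b := 0) (g0 := 1) hm0 hs0 (by rwa [cj_one])
  have hc := c_mem hT h hn
  set c := d.y * z hT * d.y⁻¹ with hcdef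
  -- the last but one vertex can be the second one
  obtain ⟨g', hn'⟩ : ∃ g', Norm d 0 g' g1 g1 := by
    refine ⟨k0 * g, hn.first, hn.first_Q, hn.first_V, hn.rest, hn.first.walk, ?_, hn.crit⟩
    obtain ⟨m', hm', hs'⟩ := hn.rest
    have hH : m'⁻¹ * g1 ∈ d.H := by
      have := inv_mem (show g1⁻¹ * m' ∈ d.H from hm')
      rwa [show (g1⁻¹ * m')⁻¹ = m'⁻¹ * g1 by group] at this
    simpa using hs'.mul_right' hH
  have hgood : ∀ k, d.Good k → ¬ cj k d.V' ≤ d.Q' := by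
    intro k hk
    have := other_crit hT h hn' hk
    rwa [hn'.first_Q] at this
  have hsq : ∀ x ∈ cj d.h d.V', x ∉ d.Q' → ∀ w ∈ d.P, w ∉ d.Q → ⁅x, w⁆ * ⁅x, w⁆ = c := by
    intro x hx hxQ w hw hwQ
    have hwh : w * d.h ∈ d.H := mul_mem (d.PH hw) d.hmem
    have hne' : ¬ cj (d.h * d.y) d.V ≤ cj (w * d.h * d.y) d.Q := by
      rw [cj_mul d.h, cj_mul (w * d.h)]
      intro hle
      apply hgood _ (d.good_two hw hwQ)
      have := cj_mono (w * d.h)⁻¹ hle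
      rwa [← cj_mul _ _ (cj d.y d.V), ← cj_mul _ _ (cj d.y d.Q), inv_mul_cancel, cj_one] at this
    have hs1 : d.Step (d.h * d.y) 1 := (step_edge d.hmem (Or.inl rfl)).symm
    have hs2 : d.Step 1 (w * d.h * d.y) := step_edge hwh (Or.inl rfl)
    have hw2 : d.Walk 2 (d.h * d.y) (w * d.h * d.y) := ⟨1, hs1.walk, hs2⟩
    have hVQ' := V_le_Q' h le_rfl
    have hV'Q := V'_le_Q h le_rfl
    have hxV : x ∈ cj (d.h * d.y) d.V := by rw [cj_mul]; exact hx
    have hxnot : x ∉ d.V := fun h' => hxQ (hVQ' h')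
    have hxQ'' : x ∉ cj (w * d.h * d.y) d.Q := by
      intro hx'
      apply hne'
      intro x' hx''
      have hVw : d.V ≤ cj (w * d.h * d.y) d.Q := by
        rw [cj_mul, ← d.cj_V hwh]; exact cj_mono _ hVQ'
      by_cases hx'V : x' ∈ d.V
      · exact hVw hx'V
      · have hkZ : cj (d.h * d.y) d.Z ≤ d.V := by
          rw [cj_mul, cj_y_Z hT.noCentral]
          exact (cj_mono _ inf_le_left).trans (d.cj_V d.hmem).le
        have hn1 : ∀ v, v ∉ d.V → (d.h * d.y)⁻¹ * v * (d.h * d.y) ∉ d.Z := fun v hv h' =>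
          hv (hkZ (mem_cj.2 h'))
        have h3 := Z_index hT (mem_cj.1 hx'') (mem_cj.1 hxV) (hn1 _ hx'V) (hn1 _ hxnot)
        have h4 : x' * x ∈ d.V := hkZ (mem_cj.2 (by convert h3 using 1; group))
        have h5 := mul_mem (hVw h4) (inv_mem hx')
        rwa [mul_inv_cancel_right] at h5
    have hx2 : w * x * w⁻¹ ∈ cj (w * d.h * d.y) d.V := by
      rw [mul_assoc w d.h, cj_mul w]; exact conj_mem_cj.2 hxV
    have hx2' : w * x * w⁻¹ ∉ cj (d.h * d.y) d.Q := by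
      intro h'
      -- conjugate back
      have hsy := crit_symm h hT.noCentral hw2 hne'
      apply hsy
      intro x' hx'
      have hx1 : w⁻¹ * x' * w ∈ cj (d.h * d.y) d.V := by
        rw [mul_assoc w d.h, cj_mul w, mem_cj] at hx'; exact hx'
      by_cases hx'V : x' ∈ d.V
      · rw [cj_mul]
        have : cj d.h d.V ≤ cj d.h d.Q' := cj_mono _ hVQ'
        exact this (by rw [d.cj_V d.hmem]; exact hx'V)
      · have hkZ : cj (d.h * d.y) d.Z ≤ d.V := by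
          rw [cj_mul, cj_y_Z hT.noCentral]
          exact (cj_mono _ inf_le_left).trans (d.cj_V d.hmem).le
        have hn1 : ∀ v, v ∉ d.V → (d.h * d.y)⁻¹ * v * (d.h * d.y) ∉ d.Z := fun v hv h'' =>
          hv (hkZ (mem_cj.2 h''))
        have hx'n : w⁻¹ * x' * w ∉ d.V := fun h'' => hx'V
          ((mem_normalizer_iff''.1 (d.HnV (d.PH hw)) x').2 h'')
        have h3 := Z_index hT (mem_cj.1 hx1) (mem_cj.1 hxV) (hn1 _ hx'n) (hn1 _ hxnot)
        have h4 : (w⁻¹ * x' * w) * x ∈ d.V := hkZ (mem_cj.2 (by convert h3 using 1; group))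
        have h6 : x' * (w * x * w⁻¹) ∈ d.V := by
          have := (mem_normalizer_iff.1 (d.HnV (d.PH hw)) _).1 h4
          convert this using 1; group
        have h7 : x' * (w * x * w⁻¹) ∈ cj (d.h * d.y) d.Q := by
          rw [cj_mul]; exact cj_mono _ hVQ' (by rw [d.cj_V d.hmem]; exact h6)
        have h5 := mul_mem h7 (inv_mem h')
        rwa [mul_inv_cancel_right] at h5
    have hcomm := crit_comm hT h (g0 := d.h * d.y) (g1 := 1) (a := 1) (one_mem _)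
      (by rw [mul_one, cj_one, cj_mul, d.cj_y_Q', d.cj_Q d.hmem]) hs2.walk hw2 hne' hxV hxQ'' hx2
      hx2'
    have hx2one : x * x = 1 := by
      have h2 := d.sq_V (mem_cj.1 hxV)
      calc x * x = (d.h * d.y) * (((d.h * d.y)⁻¹ * x * (d.h * d.y)) *
            ((d.h * d.y)⁻¹ * x * (d.h * d.y))) * (d.h * d.y)⁻¹ := by group
        _ = 1 := by rw [h2]; group
    have hxinv : x⁻¹ = x := inv_eq_of_mul_eq_one_right hx2one
    have hx2inv : (w * x * w⁻¹)⁻¹ = w * x * w⁻¹ := by rw [mul_inv_rev, mul_inv_rev, inv_inv, hxinv]; group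
    calc ⁅x, w⁆ * ⁅x, w⁆ = ⁅x, w * x * w⁻¹⁆ := by
          rw [commutatorElement_def x w, commutatorElement_def, hx2inv, hxinv]; group
      _ = d.h * d.y * 1 * z hT * (d.h * d.y * 1)⁻¹ := hcomm
      _ = d.h * c * d.h⁻¹ := by rw [hcdef]; group
      _ = c := by rw [hc.2 d.h d.hmem, mul_inv_cancel_right]
  obtain ⟨x, hx, hxQ⟩ := SetLike.not_le_iff_exists.1 (hgood _ d.good_h)
  -- a second element of the same sort
  have hV'Q := V'_le_Q h le_rfl
  have hxP : x ∈ d.P := d.QP (by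
    rw [← d.cj_Q d.hmem]; exact cj_mono _ hV'Q hx)
  have hwP : d.y⁻¹ * x * d.y ∈ d.P := d.mem_P_conj.2 hxP
  have hwQ : d.y⁻¹ * x * d.y ∉ d.Q := fun h' => hxQ (mem_cj.2 h')
  have huP : d.y * x * d.y⁻¹ ∈ d.P := by rw [← d.yP]; exact conj_mem_cj.2 hxP
  have huQ : d.y * x * d.y⁻¹ ∉ d.Q := fun h' => hxQ (by
    have h2 := mem_cj.1 ((le_of_eq d.cj_y_Q'.symm) h')
    simpa [mul_assoc] using h2)
  have e1 := hsq x hx hxQ _ huP huQ
  have e2 := hsq x hx hxQ _ hwP hwQ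
  have e3 : ⁅d.y * x * d.y⁻¹, x⁆ * ⁅d.y * x * d.y⁻¹, x⁆ = d.y * c * d.y⁻¹ := by
    rw [← e2]
    simp only [commutatorElement_def]
    group
  have hz : d.y * c * d.y⁻¹ = z hT := by
    rw [hcdef]
    calc d.y * (d.y * z hT * d.y⁻¹) * d.y⁻¹ = d.y * d.y * z hT * (d.y * d.y)⁻¹ := by group
      _ = z hT := yy_conj_Z hT.noCentral (z_mem hT)
  have hinv : ⁅d.y * x * d.y⁻¹, x⁆ * ⁅d.y * x * d.y⁻¹, x⁆ = c⁻¹ := by
    rw [← commutatorElement_inv, ← mul_inv_rev, e1]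
  apply z_notMem_C hT
  rw [← hz, ← e3, hinv]
  exact inv_mem hc

/-- The critical distance is one. -/
theorem V_not_le_Q' (hN : d.NoCentral) : ¬ d.V ≤ d.Q' := by
  obtain ⟨b, hb, h⟩ := exists_crit d
  rcases b with _ | _ | b
  · omega
  · exact not_V_le_of_crit_one h
  · exfalso
    have hT := trans_of_crit h hN
    rcases b with _ | b
    · exact no_crit_two hT h
    · exact no_crit_ge_three hT h

end Cfsg.Agent.PushDihedral.Cfg
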