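import Cfsg.Agent.PushDihedral.Distant

/-!
Pushing up: `Q` is elementary abelian of order four or eight.
-/

set_option autoImplicit false
set_option linter.unusedSectionVars false

open Subgroup
open scoped commutatorElement

namespace Cfsg.Agent.PushDihedral.Cfg

variable {G : Type*} [Group G] [Finite G] {d : Cfg G}

theorem exists_transvection (hN : d.NoCentral) :
    ∃ u ∈ d.V', u ∉ d.Q ∧ Trans d ∧ ∀ r ∈ d.R, r * u = u * r := by
  have h1 := V_not_le_Q' hN
  have h2 : ¬ d.V' ≤ d.Q := fun h => h1 (by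
    have := cj_mono d.y h
    rwa [d.cj_y_V'] at this)
  obtain ⟨u, hu, hu'⟩ := SetLike.not_le_iff_exists.1 h2
  have hR : ∀ r ∈ d.R, r * u = u * r := by
    intro r hr
    have hr' := mem_cj.1 hr.2
    have h := d.comm_VQ (mem_cj.1 hu) hr'
    calc r * u = d.y * ((d.y⁻¹ * r * d.y) * (d.y⁻¹ * u * d.y)) * d.y⁻¹ := by group
      _ = u * r := by rw [h]; group
  refine ⟨u, hu, hu', ⟨hN, u, d.V'P hu, hu', fun v hv w hw hvu hwu => ?_⟩, hR⟩
  refine hR _ ⟨mul_mem (d.VQ hv) (d.VQ hw), ?_⟩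
  exact d.two' (d.VP hv) (fun h => hvu (hR v ⟨d.VQ hv, h⟩)) (d.VP hw)
    (fun h => hwu (hR w ⟨d.VQ hw, h⟩))

/-- The main structural conclusion. -/
theorem Q_eq_V (hN : d.NoCentral) : d.Q = d.V := by
  obtain ⟨u, huV, huQ, hT, hR⟩ := exists_transvection hN
  have huP : u ∈ d.P := d.V'P huV
  obtain ⟨v0, hv0, hv0'⟩ := SetLike.not_le_iff_exists.1 (V_not_le_Q' hN)
  have hu2 : u * u = 1 := by
    have h2 := d.sq_V (mem_cj.1 huV)
    calc u * u = d.y * ((d.y⁻¹ * u * d.y) * (d.y⁻¹ * u * d.y)) * d.y⁻¹ := by group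
      _ = 1 := by rw [h2]; group
  have hRV : ∀ x ∈ d.R, x ∈ d.V → x ∈ d.Z := fun x hx hxV => mem_Z_of_comm hT huP huQ hxV (hR x hx)
  have hZR : ∀ x ∈ d.Z, x ∈ d.R := fun x hx => ⟨d.VQ hx.1, d.V'Q' (by
    rw [← cj_y_Z hN] at hx; exact cj_mono _ inf_le_left hx)⟩
  let T : Subgroup G := d.R ⊓ cj d.h d.R
  -- every element of `Q` is `T` times `V`
  have hdec : ∀ q ∈ d.Q, ∃ v ∈ d.V, q * v ∈ T := by
    intro q hq
    obtain ⟨v, hv, hqv⟩ : ∃ v ∈ d.V, q * v ∈ d.R := by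
      by_cases h : q ∈ d.Q'
      · exact ⟨1, one_mem _, by rw [mul_one]; exact ⟨hq, h⟩⟩
      · exact ⟨v0, hv0, mul_mem hq (d.VQ hv0), d.two' (d.QP hq) h (d.VP hv0) hv0'⟩
    by_cases h : q * v ∈ cj d.h d.R
    · exact ⟨v, hv, hqv, h⟩
    · refine ⟨v * z hT, mul_mem hv (z_mem hT).1, ?_⟩
      rw [← mul_assoc]
      refine ⟨mul_mem hqv (hZR _ (z_mem hT)), mem_cj.2 ?_⟩
      have hzh : d.h⁻¹ * z hT * d.h ∉ d.Q' := by
        intro h'
        have hzV : d.h⁻¹ * z hT * d.h ∈ d.V :=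
          (mem_normalizer_iff''.1 (d.HnV d.hmem) _).1 (z_mem hT).1
        exact z_notMem_C hT (mem_C hT d.good_h (z_mem hT) (mem_cj.2 (hRV _ ⟨d.VQ hzV, h'⟩ hzV)))
      have hm : ∀ x, x ∈ d.Q → d.h⁻¹ * x * d.h ∈ d.Q := fun x hx =>
        (mem_normalizer_iff''.1 (d.Qn d.hmem) x).1 hx
      have h1 := hm _ hqv.1
      have h2 := hm _ (d.VQ (z_mem hT).1)
      rw [show d.h⁻¹ * (q * v * z hT) * d.h = (d.h⁻¹ * (q * v) * d.h) * (d.h⁻¹ * z hT * d.h) by group]
      exact ⟨mul_mem h1 h2, d.two' (d.QP h1) (fun h' => h (mem_cj.2 ⟨h1, h'⟩)) (d.QP h2) hzh⟩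
  have hTu : ∀ t ∈ T, t * u = u * t := fun t ht => hR t ht.1
  have hTu' : ∀ t ∈ T, t * (d.h * u * d.h⁻¹) = (d.h * u * d.h⁻¹) * t := by
    intro t ht
    have h := hR _ (mem_cj.1 ht.2)
    calc t * (d.h * u * d.h⁻¹) = d.h * ((d.h⁻¹ * t * d.h) * u) * d.h⁻¹ := by group
      _ = _ := by rw [h]; group
  -- `T` is normal
  have hTn : d.H ≤ normalizer (T : Set G) := by
    have hQn : d.Q ≤ normalizer (T : Set G) := by
      intro q hq
      obtain ⟨v, hv, hqv⟩ := hdec q hq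
      have hvn : v ∈ normalizer (T : Set G) := mem_normalizer_of_cj
        (cj_eq_self_of_centralizer fun t ht => d.comm_VQ hv ht.1.1)
      rw [show q = q * v * v⁻¹ by group]
      exact mul_mem (le_normalizer hqv) (inv_mem hvn)
    have hun : u ∈ normalizer (T : Set G) :=
      mem_normalizer_of_cj (cj_eq_self_of_centralizer hTu)
    have hun' : d.h * u * d.h⁻¹ ∈ normalizer (T : Set G) :=
      mem_normalizer_of_cj (cj_eq_self_of_centralizer hTu')
    refine d.gen _ (d.P_le hQn huP huQ hun) ?_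
    rw [cj_le_iff]
    refine d.P_le ?_ huP huQ (mem_cj.2 (by rw [inv_inv]; exact hun'))
    intro q hq
    rw [mem_cj, inv_inv]
    exact hQn ((mem_normalizer_iff.1 (d.Qn d.hmem) q).1 hq)
  -- squares
  let S : Subgroup G := closure {s | ∃ t ∈ T, s = t * t}
  have hST : S ≤ T := by
    rw [closure_le]
    rintro _ ⟨t, ht, rfl⟩
    exact mul_mem ht ht
  have hS : S = ⊥ := by
    refine d.noCore S (hST.trans ((inf_le_left.trans inf_le_left).trans d.QP)) ?_ ?_
    · intro g hg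
      have key : ∀ g ∈ d.H, cj g S ≤ S := fun g hg => by
        rw [cj, MonoidHom.map_closure, closure_le]
        rintro _ ⟨_, ⟨t, ht, rfl⟩, rfl⟩
        exact subset_closure ⟨g * t * g⁻¹, (mem_normalizer_iff.1 (hTn hg) t).1 ht, by simp⟩
      exact mem_normalizer_of_cj (le_antisymm (key g hg) (le_cj_iff.2 (key g⁻¹ (inv_mem hg))))
    · rw [cj, MonoidHom.map_closure, closure_le]
      rintro _ ⟨_, ⟨t, ht, rfl⟩, rfl⟩
      have hq : d.y * t * d.y⁻¹ ∈ d.Q' := conj_mem_cj.2 ht.1.1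
      set q := d.y * t * d.y⁻¹ with hqdef
      obtain ⟨r, hr, hr2⟩ : ∃ r ∈ d.R, q * q = r * r := by
        by_cases hqQ : q ∈ d.Q
        · exact ⟨q, ⟨hqQ, hq⟩, rfl⟩
        · have hqu : q * u ∈ d.R :=
            ⟨d.two _ (d.Q'P hq) hqQ _ huP huQ, mul_mem hq (d.V'Q' huV)⟩
          refine ⟨q * u, hqu, ?_⟩
          have hc := hR _ hqu
          have e : q = q * u * u := by rw [mul_assoc, hu2, mul_one]
          calc q * q = (q * u * u) * (q * u * u) := by rw [← e]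
            _ = q * u * (u * (q * u)) * u := by group
            _ = q * u * (q * u) * (u * u) := by rw [← hc]; group
            _ = _ := by rw [hu2, mul_one]
      obtain ⟨v, hv, hrv⟩ := hdec r hr.1
      refine subset_closure ⟨r * v, hrv, ?_⟩
      show d.y * (t * t) * d.y⁻¹ = _
      rw [show d.y * (t * t) * d.y⁻¹ = q * q by rw [hqdef]; group, hr2,
        show r * v * (r * v) = r * (v * r) * v by group, ← d.comm_VQ hv hr.1,
        show r * (r * v) * v = r * r * (v * v) by group, d.sq_V hv, mul_one]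
  have hsq : ∀ q ∈ d.Q, q * q = 1 := by
    intro q hq
    obtain ⟨v, hv, hqv⟩ := hdec q hq
    have h : q * v * (q * v) ∈ S := subset_closure ⟨q * v, hqv, rfl⟩
    rw [hS, mem_bot] at h
    rwa [show q * v * (q * v) = q * (v * q) * v by group, ← d.comm_VQ hv hq,
      show q * (q * v) * v = q * q * (v * v) by group, d.sq_V hv, mul_one] at h
  refine le_antisymm (fun q hq => ⟨hq, hsq q hq, fun w hw => ?_⟩) d.VQ
  have e : ∀ a ∈ d.Q, a⁻¹ = a := fun a ha => inv_eq_of_mul_eq_one_right (hsq a ha)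
  have := e _ (mul_mem hw hq)
  rw [mul_inv_rev, e _ hw, e _ hq] at this
  exact this.symm

end Cfsg.Agent.PushDihedral.Cfg
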