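import Cfsg.Prelude.Def_Solvable
import Cfsg.Agent.PushDihedral.Near
import Cfsg.Agent.SimsLocal.SmallGroups
import Cfsg.Agent.Cores.Pi
import Cfsg.Agent.Transfer.Frobenius
import Cfsg.Agent.Transfer.Residual

/-!
Pushing up: identification of `H` modulo its odd core.
-/

set_option autoImplicit false
set_option linter.style.haveILetI false
set_option linter.unusedSectionVars false

open Subgroup
open scoped commutatorElement

namespace Cfsg.Agent.PushDihedral

variable {G : Type*} [Group G] [Finite G]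

theorem card_two {X Y : Subgroup G} (hXY : X ≤ Y) {y0 : G} (hy : y0 ∈ Y) (hy' : y0 ∉ X)
    (h : ∀ a ∈ Y, a ∈ X ∨ a * y0 ∈ X) : Nat.card Y = 2 * Nat.card X := by
  classical
  have h2 : (X.subgroupOf Y).index = 2 := by
    rw [index_eq_two_iff]
    refine ⟨⟨y0, hy⟩, fun b => ?_⟩
    rcases em ((b : G) ∈ X) with hb | hb
    · refine Or.inr ⟨mem_subgroupOf.2 hb, fun hc => hy' ?_⟩
      have := mul_mem (inv_mem hb) (mem_subgroupOf.1 hc)
      simpa using this
    · exact Or.inl ⟨mem_subgroupOf.2 ((h b b.2).resolve_left hb), fun hc => hb (mem_subgroupOf.1 hc)⟩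
  rw [← Subgroup.card_mul_index (X.subgroupOf Y), h2, Nat.card_congr (subgroupOfEquivOfLe hXY).toEquiv,
    mul_comm]

omit [Finite G] in
theorem nonempty_kleinFour_equiv {K : Type*} [Group K] (hc : Nat.card K = 4)
    (h2 : ∀ x : K, x * x = 1) :
    Nonempty (K ≃* Multiplicative (ZMod 2) × Multiplicative (ZMod 2)) := by
  haveI : Finite K := Nat.finite_of_card_ne_zero (by omega)
  haveI : Nontrivial K := Finite.one_lt_card_iff_nontrivial.1 (by omega)
  haveI : IsKleinFour K := ⟨hc, (Nat.dvd_prime Nat.prime_two).1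
    (Monoid.exponent_dvd_of_forall_pow_eq_one fun x => by rw [pow_two]; exact h2 x) |>.resolve_left
      fun h => not_subsingleton K (Monoid.exp_eq_one_iff.1 h)⟩
  haveI : IsKleinFour (Multiplicative (ZMod 2) × Multiplicative (ZMod 2)) := by
    refine ⟨by simp, ?_⟩
    refine ((Nat.dvd_prime Nat.prime_two).1
      (Monoid.exponent_dvd_of_forall_pow_eq_one ?_)).resolve_left
      fun h => not_subsingleton (Multiplicative (ZMod 2) × Multiplicative (ZMod 2))
        (Monoid.exp_eq_one_iff.1 h)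
    decide
  exact IsKleinFour.nonempty_mulEquiv

theorem mul_quot {M : Type*} [Group M] [Finite M] (N T : Subgroup M) [N.Normal] (h1 : N ⊓ T = ⊥)
    (h2 : N ⊔ T = ⊤) : Nonempty (↥T ≃* M ⧸ N) := by
  refine ⟨MulEquiv.ofBijective ((QuotientGroup.mk' N).comp T.subtype) ⟨?_, ?_⟩⟩
  · rw [injective_iff_map_eq_one]
    intro t ht
    have : (t : M) ∈ N ⊓ T := ⟨(QuotientGroup.eq_one_iff _).1 ht, t.2⟩
    rw [h1, mem_bot] at this
    exact Subtype.ext this
  · intro x
    obtain ⟨m, rfl⟩ := QuotientGroup.mk'_surjective N x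
    have hm : m ∈ N ⊔ T := by rw [h2]; exact mem_top m
    obtain ⟨a, ha, t, ht, rfl⟩ := mem_sup_of_normal_left.1 hm
    refine ⟨⟨t, ht⟩, ?_⟩
    show (t : M ⧸ N) = ((a * t : M) : M ⧸ N)
    rw [QuotientGroup.mk_mul, (QuotientGroup.eq_one_iff a).2 ha, one_mul]

namespace Cfg

variable {d : Cfg G}

/-- `Q` inside `H`. -/
abbrev QH' (d : Cfg G) : Subgroup d.H := d.Q.subgroupOf d.H
/-- `P` inside `H`. -/
abbrev PH' (d : Cfg G) : Subgroup d.H := d.P.subgroupOf d.H

theorem QH'_normal : d.QH'.Normal :=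
  normal_subgroupOf_of_le_normalizer d.Qn

theorem oddCore_inf_eq_bot {X : Subgroup d.H} (hX : IsPGroup 2 X) :
    Cfsg.oddCore d.H ⊓ X = ⊥ := by
  haveI : Fact (Nat.Prime 2) := ⟨Nat.prime_two⟩
  obtain ⟨k, hk⟩ := hX.exists_card_eq
  refine Subgroup.inf_eq_bot_of_coprime ?_
  rw [hk]
  exact (Nat.coprime_two_right.2 Cores.odd_card_oddCore).pow_right k

theorem commute_oddCore {X : Subgroup d.H} (hXn : X.Normal) (hX : IsPGroup 2 X) {o x : d.H}
    (ho : o ∈ Cfsg.oddCore d.H) (hx : x ∈ X) : o * x = x * o :=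
  Subgroup.commute_of_normal_of_disjoint _ _ inferInstance hXn
    (disjoint_iff.2 (oddCore_inf_eq_bot hX)) o x ho hx

/-- The extremal case: `Q` of order two. -/
theorem identify_small (hI : ¬ d.NoCentral) (hPi : ¬ 2 ∣ d.P.relIndex d.H) :
    Nat.card d.P = 4 ∧
      Nonempty (↥d.H ⧸ Cfsg.oddCore ↥d.H ≃* Multiplicative (ZMod 2) × Multiplicative (ZMod 2)) := by
  classical
  haveI : Fact (Nat.Prime 2) := ⟨Nat.prime_two⟩
  unfold NoCentral at hI
  push Not at hI
  obtain ⟨a, ha, ha', hac⟩ := hI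
  have hcent : d.P ≤ d.Q ⊔ centralizer (d.Q : Set G) :=
    d.P_le le_sup_left ha ha' (mem_sup_right fun q hq => hac q hq)
  have hH : d.H ≤ d.Q ⊔ centralizer (d.Q : Set G) := by
    refine d.gen _ hcent ?_
    intro x hx
    rw [mem_cj] at hx
    have h := hcent hx
    have hn : d.h ∈ normalizer ((d.Q ⊔ centralizer (d.Q : Set G) : Subgroup G) : Set G) := by
      apply mem_normalizer_of_cj
      show Subgroup.map _ (d.Q ⊔ _) = _
      rw [Subgroup.map_sup]
      have h1 : cj d.h d.Q = d.Q := d.cj_Q d.hmem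
      have hm : ∀ g : G, cj g d.Q = d.Q → ∀ c ∈ centralizer (d.Q : Set G),
          g * c * g⁻¹ ∈ centralizer (d.Q : Set G) := by
        intro g hg c hc q hq
        have hq' : g⁻¹ * q * g ∈ d.Q := by rw [← mem_cj, hg]; exact hq
        calc q * (g * c * g⁻¹) = g * ((g⁻¹ * q * g) * c) * g⁻¹ := by group
          _ = g * c * g⁻¹ * q := by rw [hc _ hq']; group
      have h2 : cj d.h (centralizer (d.Q : Set G)) = centralizer (d.Q : Set G) := by
        refine le_antisymm ?_ fun c hc => mem_cj.2 ?_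
        · rintro _ ⟨c, hc, rfl⟩
          exact hm _ h1 c hc
        · have := hm d.h⁻¹ (d.cj_Q (inv_mem d.hmem)) c hc
          simpa using this
      exact congrArg₂ (· ⊔ ·) h1 h2
    have := (mem_normalizer_iff.1 hn _).1 h
    simpa [mul_assoc] using this
  have hRn : d.H ≤ normalizer (d.R : Set G) := by
    refine hH.trans (sup_le ?_ ?_)
    · intro q hq
      exact mem_normalizer_of_cj (by
        rw [show cj q d.R = cj q d.Q ⊓ cj q d.Q' from map_inf _ _ _ (MulAut.conj q).injective,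
          d.cj_Q (d.QH hq), cj_eq_self (d.PnQ' (d.QP hq))])
    · intro c hc
      exact mem_normalizer_of_cj (cj_eq_self_of_centralizer fun x hx => hc x hx.1)
  have hR : d.R = ⊥ := by
    refine d.noCore _ (inf_le_left.trans d.QP) hRn ?_
    intro x hx
    rw [mem_cj] at hx
    refine ⟨?_, mem_cj.2 hx.1⟩
    show x ∈ d.Q
    rw [← d.cj_y_Q', mem_cj]; exact hx.2
  obtain ⟨q, hqQ, hqQ'⟩ : ∃ q ∈ d.Q, q ∉ d.Q' := by
    by_contra hc
    push Not at hc
    exact d.Qne (le_bot_iff.1 (hR ▸ le_inf le_rfl hc))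
  have hQmem : ∀ x ∈ d.Q, x ∈ (⊥ : Subgroup G) ∨ x * q ∈ (⊥ : Subgroup G) := by
    intro x hx
    by_cases h : x ∈ d.Q'
    · exact Or.inl (hR ▸ ⟨hx, h⟩)
    · exact Or.inr (hR ▸ ⟨mul_mem hx hqQ, d.two' (d.QP hx) h (d.QP hqQ) hqQ'⟩)
  have hq1 : q ≠ 1 := fun e => hqQ' (e ▸ one_mem _)
  have hQc : Nat.card d.Q = 2 := by
    rw [card_two bot_le hqQ (by rwa [mem_bot]) hQmem]; simp
  have hPc : Nat.card d.P = 4 := by
    rw [card_two d.QP ha ha' (fun x hx => (em (x ∈ d.Q)).imp id (fun h => d.two x hx h a ha ha')),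
      hQc]
  refine ⟨hPc, ?_⟩
  have hq2 : q * q = 1 := by
    rcases hQmem q hqQ with h | h
    · exact absurd (mem_bot.1 h) hq1
    · exact mem_bot.1 h
  have hQel : ∀ x ∈ d.Q, x = 1 ∨ x = q := by
    intro x hx
    rcases hQmem x hx with h | h
    · exact Or.inl (mem_bot.1 h)
    · exact Or.inr (by rw [← inv_eq_of_mul_eq_one_right hq2]; exact eq_inv_of_mul_eq_one_left (mem_bot.1 h))
  -- the other involution
  set q' := d.y * q * d.y⁻¹ with hq'
  have hq'Q' : q' ∈ d.Q' := conj_mem_cj.2 hqQ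
  have hq'2 : q' * q' = 1 := by
    rw [hq', show d.y * q * d.y⁻¹ * (d.y * q * d.y⁻¹) = d.y * (q * q) * d.y⁻¹ by group, hq2]; group
  have hq'Q : q' ∉ d.Q := by
    intro h
    have : q' ∈ d.R := ⟨h, hq'Q'⟩
    rw [hR, mem_bot, hq', conj_eq_one_iff] at this
    exact hq1 this
  have hq'P : q' ∈ d.P := d.Q'P hq'Q'
  have hQcen : ∀ g ∈ d.H, g * q = q * g := by
    intro g hg
    rcases hQel (g * q * g⁻¹) ((mem_normalizer_iff.1 (d.Qn hg) q).1 hqQ) with h | h
    · exact absurd (conj_eq_one_iff.1 h) hq1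
    · exact mul_inv_eq_iff_eq_mul.1 h
  have hPel : ∀ x ∈ d.P, x = 1 ∨ x = q ∨ x = q' ∨ x = q * q' := by
    intro x hx
    by_cases h : x ∈ d.Q
    · rcases hQel x h with h | h
      · exact Or.inl h
      · exact Or.inr (Or.inl h)
    · rcases hQel _ (d.two x hx h q' hq'P hq'Q) with h | h
      · refine Or.inr (Or.inr (Or.inl ?_))
        rw [← inv_eq_of_mul_eq_one_right hq'2]; exact eq_inv_of_mul_eq_one_left h
      · refine Or.inr (Or.inr (Or.inr ?_))
        rw [← h, mul_assoc, hq'2, mul_one]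
  have hqq' : q * q' = q' * q := (hQcen q' (d.PH hq'P)).symm
  have hPsq : ∀ x ∈ d.P, x * x = 1 := by
    intro x hx
    rcases hPel x hx with rfl | rfl | rfl | rfl
    · exact one_mul 1
    · exact hq2
    · exact hq'2
    · calc q * q' * (q * q') = q * (q' * q) * q' := by group
        _ = (q * q) * (q' * q') := by rw [← hqq']; group
        _ = 1 := by rw [hq2, hq'2, one_mul]
  -- normal complement
  have hPHp : IsPGroup 2 d.PH' := d.pgroup.of_equiv (subgroupOfEquivOfLe d.PH).symm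
  let S : Sylow 2 d.H := hPHp.toSylow hPi
  have hS : (S : Subgroup d.H) = d.PH' := rfl
  have hNPC : Cfsg.HasNormalPComplement 2 d.H := by
    refine Transfer.hasNormalPComplement_of_normalizer_le_centralizer S ?_
    rw [hS]
    intro x hx
    have hconj : ∀ w ∈ d.P, (x : G) * w * (x : G)⁻¹ ∈ d.P := fun w hw =>
      mem_subgroupOf.1 ((mem_normalizer_iff.1 hx ⟨w, d.PH hw⟩).1 (mem_subgroupOf.2 hw))
    have hx2 : x * x ∈ centralizer (d.PH' : Set d.H) := by
      intro w hw
      refine Subtype.ext ?_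
      show (w : G) * ((x : G) * x) = (x : G) * x * w
      have hxq : (x : G) * q * (x : G)⁻¹ = q := by rw [hQcen x x.2]; group
      have hxq' : (x : G) * q' * (x : G)⁻¹ = q' ∨ (x : G) * q' * (x : G)⁻¹ = q * q' := by
        rcases hPel _ (hconj q' hq'P) with h | h | h | h
        · exact absurd (conj_eq_one_iff.1 h) (fun e => hq'Q (e ▸ one_mem _))
        · exfalso
          apply hq'Q
          rw [show q' = q from mul_left_cancel (mul_right_cancel (h.trans hxq.symm))]
          exact hqQ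
        · exact Or.inl h
        · exact Or.inr h
      have hfix : (x : G) * x * q' * ((x : G) * x)⁻¹ = q' := by
        rw [show (x : G) * x * q' * ((x : G) * x)⁻¹ =
          (x : G) * ((x : G) * q' * (x : G)⁻¹) * (x : G)⁻¹ by group]
        rcases hxq' with h | h
        · rw [h, h]
        · rw [h, show (x : G) * (q * q') * (x : G)⁻¹ =
            ((x : G) * q * (x : G)⁻¹) * ((x : G) * q' * (x : G)⁻¹) by group, hxq, h, ← mul_assoc,
            hq2, one_mul]
      have c1 : Commute ((x : G) * x) q' := mul_inv_eq_iff_eq_mul.1 hfix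
      have c2 : Commute ((x : G) * x) q :=
        hQcen _ (mul_mem x.2 x.2)
      rcases hPel (w : G) (mem_subgroupOf.1 hw) with h | h | h | h <;> rw [h]
      · rw [one_mul, mul_one]
      · exact c2.eq.symm
      · exact c1.eq.symm
      · exact (c2.mul_right c1).eq.symm
    obtain ⟨k, m, hmo, hkm⟩ : ∃ k m, Odd m ∧ orderOf x = 2 ^ k * m :=
      Nat.exists_eq_two_pow_mul_odd (orderOf_pos x).ne'
    have h1 : x ^ m ∈ d.PH' := by
      refine (IsPGroup.inf_normalizer_sylow (P := zpowers (x ^ m)) ?_ S).le ?_ |>.2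
      · refine IsPGroup.of_card (n := k) ?_
        rw [Nat.card_zpowers, orderOf_pow_of_dvd hmo.pos.ne' (hkm ▸ dvd_mul_left m _), hkm,
          Nat.mul_div_cancel _ hmo.pos]
      · exact ⟨mem_zpowers _, pow_mem hx m⟩
    have h2 : x ^ m ∈ centralizer (d.PH' : Set d.H) := by
      intro w hw
      refine Subtype.ext ?_
      show (w : G) * (x ^ m : d.H) = (x ^ m : d.H) * (w : G)
      have hc : ∀ u ∈ d.P, ∀ v ∈ d.P, u * v = v * u := by
        intro u hu v hv
        have h := hPsq _ (mul_mem hu hv)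
        calc u * v = (u * u) * (u * v) * (v * v) := by rw [hPsq u hu, hPsq v hv, one_mul, mul_one]
          _ = (u * v) * (u * v) * ((u * v)⁻¹) := by rw [hPsq u hu, hPsq v hv]; group
          _ = v * u := by
            rw [h, one_mul, mul_inv_rev, inv_eq_of_mul_eq_one_right (hPsq u hu),
              inv_eq_of_mul_eq_one_right (hPsq v hv)]
      exact hc _ (mem_subgroupOf.1 hw) _ (mem_subgroupOf.1 h1)
    obtain ⟨j, hj⟩ := hmo
    have : x = x ^ m * ((x * x) ^ j)⁻¹ := by
      rw [hj, pow_succ, ← pow_two, ← pow_mul]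
      group
    rw [this]
    exact mul_mem h2 (inv_mem (pow_mem hx2 j))
  obtain ⟨N, hN, hNc⟩ := (Transfer.hasNormalPComplement_iff_exists S).1 hNPC
  have hNodd : Odd (Nat.card N) := by
    rw [← Nat.not_even_iff_odd, even_iff_two_dvd, ← hNc.index_eq_card]
    exact hPi
  have hOP : Cfsg.oddCore d.H ⊓ d.PH' = ⊥ := oddCore_inf_eq_bot hPHp
  have htop : Cfsg.oddCore d.H ⊔ d.PH' = ⊤ :=
    top_le_iff.1 (hNc.sup_eq_top.symm.le.trans (sup_le_sup (Cores.le_oddCore hN hNodd) hS.le))
  obtain ⟨e⟩ := mul_quot _ _ hOP htop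
  obtain ⟨e'⟩ := nonempty_kleinFour_equiv (K := d.PH')
    (by rw [Nat.card_congr (subgroupOfEquivOfLe d.PH).toEquiv, hPc])
    (fun x => Subtype.ext (Subtype.ext (hPsq _ (mem_subgroupOf.1 x.2))))
  exact ⟨e.symm.trans e'⟩

end Cfg

end Cfsg.Agent.PushDihedral
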