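import Cfsg.Agent.PushDihedral.Identify
import Cfsg.Agent.Coprime.Conj

/-!
Pushing up: the case leading to the symmetric group of degree four.
-/

set_option autoImplicit false
set_option linter.style.haveILetI false
set_option linter.unusedSectionVars false

open Subgroup
open scoped commutatorElement

namespace Cfsg.Agent.PushDihedral

variable {G : Type*} [Group G] [Finite G] {d : Cfg G}

namespace Cfg

theorem card_Q (hN : d.NoCentral) (hT : Trans d) :
    Nat.card d.Q = 4 * Nat.card d.C ∧ (d.C = ⊥ ∨ Nat.card d.C = 2) ∧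
      Nat.card d.P = 2 * Nat.card d.Q := by
  obtain ⟨v, hv, hv'⟩ := exists_not_mem_Z hT
  obtain ⟨a, ha, ha'⟩ := d.exists_out
  have h1 : Nat.card d.V = 2 * Nat.card d.Z :=
    card_two inf_le_left hv hv' fun x hx => V_cases hT hv hv' hx
  have h2 : Nat.card d.Z = 2 * Nat.card d.C :=
    card_two (C_le_Z hT) (z_mem hT) (z_notMem_C hT) fun x hx => Z_cases hT hx
  refine ⟨by rw [Q_eq_V hN, h1, h2]; ring, ?_,
    card_two d.QP ha ha' fun x hx => (em (x ∈ d.Q)).imp id (fun h => d.two x hx h a ha ha')⟩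
  by_cases hC : d.C = ⊥
  · exact Or.inl hC
  · obtain ⟨c, hc, hc1⟩ := (Subgroup.bot_or_exists_ne_one d.C).resolve_left hC
    refine Or.inr ?_
    rw [card_two bot_le hc (by rwa [mem_bot]) fun x hx => ?_]
    · simp
    · by_cases hx1 : x = 1
      · exact Or.inl (mem_bot.2 hx1)
      · exact Or.inr (by rw [mem_bot, C_unique hT hx hx1 hc hc1, d.sq_V hc.1])

set_option maxHeartbeats 2000000 in
theorem identify_four (hN : d.NoCentral) (hn : ∃ m : ℕ, Odd m ∧ ∀ g ∈ d.H,
      (∀ v ∈ d.V, g * v = v * g) → g ^ m ∈ d.Q) :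
    (Nat.card d.P = 8 ∨ Nat.card d.P = 16) ∧
    (Nonempty (↥d.H ⧸ Cfsg.oddCore ↥d.H ≃* Equiv.Perm (Fin 4)) ∨
      Nonempty (↥d.H ⧸ Cfsg.oddCore ↥d.H ≃* Equiv.Perm (Fin 4) × Multiplicative (ZMod 2))) := by
  classical
  haveI : Fact (Nat.Prime 2) := ⟨Nat.prime_two⟩
  obtain ⟨u, huV', huQ, hT, -⟩ := exists_transvection hN
  obtain ⟨hQc, hC, hPc⟩ := card_Q hN hT
  have hPcases : Nat.card d.P = 8 ∨ Nat.card d.P = 16 := by
    rcases hC with h | h
    · rw [h, card_bot] at hQc; omega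
    · rw [h] at hQc; omega
  refine ⟨hPcases, ?_⟩
  have hQV := Q_eq_V hN
  have huP : u ∈ d.P := d.V'P huV'
  set z0 := z hT with hz0def
  have hz0V : z0 ∈ d.V := (z_mem hT).1
  set z1 := d.h * z0 * d.h⁻¹ with hz1def
  have hz1V : z1 ∈ d.V := (mem_normalizer_iff.1 (d.HnV d.hmem) _).1 hz0V
  have hz1Z : z1 ∉ d.Z := cj_z_notMem_Z hT d.good_h
  set u' := d.h * u * d.h⁻¹ with hu'def
  have hu'H : u' ∈ d.H := mul_mem (mul_mem d.hmem (d.PH huP)) (inv_mem d.hmem)
  have hu2 : u * u = 1 := by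
    have h2 := d.sq_V (mem_cj.1 huV')
    calc u * u = d.y * ((d.y⁻¹ * u * d.y) * (d.y⁻¹ * u * d.y)) * d.y⁻¹ := by group
      _ = 1 := by rw [h2]; group
  -- the action on the module
  have hu0 : u * z0 * u⁻¹ = z0 := by
    rw [(z_mem hT).2 u huP, mul_inv_cancel_right]
  have hu1 : u * z1 * u⁻¹ = z1 * z0 := by
    have h := z_spec hT hz1V hz1Z huP huQ
    have e : u * z1⁻¹ * u⁻¹ = z1⁻¹ * z0 := by rw [hz0def, ← h, commutatorElement_def]; group
    rwa [d.inv_V hz1V] at e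
  have hu'1 : u' * z1 * u'⁻¹ = z1 := by
    rw [hu'def, hz1def]
    calc d.h * u * d.h⁻¹ * (d.h * z0 * d.h⁻¹) * (d.h * u * d.h⁻¹)⁻¹
        = d.h * (u * z0 * u⁻¹) * d.h⁻¹ := by group
      _ = _ := by rw [hu0]
  have hu'0 : u' * z0 * u'⁻¹ = z0 * z1 := by
    have hw : d.h⁻¹ * z0 * d.h ∈ d.V := (mem_normalizer_iff''.1 (d.HnV d.hmem) _).1 hz0V
    have hwZ : d.h⁻¹ * z0 * d.h ∉ d.Z := by
      have := cj_z_notMem_Z hT (d.good_inv d.good_h)
      rwa [inv_inv] at this
    have h := z_spec hT hw hwZ huP huQ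
    set w := d.h⁻¹ * z0 * d.h with hwdef
    have hz : z0 = d.h * w * d.h⁻¹ := by rw [hwdef]; group
    have e : u * w * u⁻¹ = w * z0 := by
      have e' : u * w⁻¹ * u⁻¹ = w⁻¹ * z0 := by rw [hz0def, ← h, commutatorElement_def]; group
      rwa [d.inv_V hw] at e'
    calc u' * z0 * u'⁻¹ = d.h * (u * w * u⁻¹) * d.h⁻¹ := by rw [hu'def, hwdef]; group
      _ = d.h * (w * z0) * d.h⁻¹ := by rw [e]
      _ = (d.h * w * d.h⁻¹) * z1 := by rw [hz1def]; group
      _ = _ := by rw [← hz]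
  have hz01 : z0 * z1 = z1 * z0 := d.comm_VQ hz1V (d.VQ hz0V)
  set x := u * u' with hxdef
  have hxH : x ∈ d.H := mul_mem (d.PH huP) hu'H
  have hx0 : x * z0 * x⁻¹ = z1 := by
    calc x * z0 * x⁻¹ = u * (u' * z0 * u'⁻¹) * u⁻¹ := by rw [hxdef]; group
      _ = (u * z0 * u⁻¹) * (u * z1 * u⁻¹) := by rw [hu'0]; group
      _ = z1 := by rw [hu0, hu1, ← hz01, ← mul_assoc, d.sq_V hz0V, one_mul]
  have hx1 : x * z1 * x⁻¹ = z0 * z1 := by
    calc x * z1 * x⁻¹ = u * (u' * z1 * u'⁻¹) * u⁻¹ := by rw [hxdef]; group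
      _ = _ := by rw [hu'1, hu1, hz01]
  have hx01 : x * (z0 * z1) * x⁻¹ = z0 := by
    calc x * (z0 * z1) * x⁻¹ = (x * z0 * x⁻¹) * (x * z1 * x⁻¹) := by group
      _ = z0 := by rw [hx0, hx1, hz01, ← mul_assoc, d.sq_V hz1V, one_mul]
  have hx3 : ∀ v ∈ d.V, x ^ 3 * v = v * x ^ 3 := by
    intro v hv
    let F : Subgroup G := centralizer {x ^ 3}
    suffices hvF : v ∈ F from (mem_centralizer_singleton_iff.1 hvF).symm
    have h0 : z0 ∈ F := by
      rw [mem_centralizer_singleton_iff]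
      have : x ^ 3 * z0 * (x ^ 3)⁻¹ = z0 := by
        calc x ^ 3 * z0 * (x ^ 3)⁻¹ = x * (x * (x * z0 * x⁻¹) * x⁻¹) * x⁻¹ := by
              simp only [pow_succ, pow_zero, one_mul, mul_inv_rev, mul_assoc]
          _ = z0 := by rw [hx0, hx1, hx01]
      exact (mul_inv_eq_iff_eq_mul.1 this).symm
    have h1 : z1 ∈ F := by
      rw [mem_centralizer_singleton_iff]
      have : x ^ 3 * z1 * (x ^ 3)⁻¹ = z1 := by
        calc x ^ 3 * z1 * (x ^ 3)⁻¹ = x * (x * (x * z1 * x⁻¹) * x⁻¹) * x⁻¹ := by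
              simp only [pow_succ, pow_zero, one_mul, mul_inv_rev, mul_assoc]
          _ = z1 := by rw [hx1, hx01, hx0]
      exact (mul_inv_eq_iff_eq_mul.1 this).symm
    have hcF : ∀ c ∈ d.C, c ∈ F := fun c hc =>
      mem_centralizer_singleton_iff.2 (hc.2 _ (pow_mem hxH 3)).symm
    have hZF : ∀ w ∈ d.Z, w ∈ F := by
      intro w hw
      rcases Z_cases hT hw with h | h
      · exact hcF w h
      · have := mul_mem (hcF _ h) (inv_mem h0)
        rwa [mul_inv_cancel_right] at this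
    rcases V_cases hT hz1V hz1Z hv with h | h
    · exact hZF v h
    · have := mul_mem (hZF _ h) (inv_mem h1)
      rwa [mul_inv_cancel_right] at this
  have hfix : ∀ v ∈ d.V, x * v * x⁻¹ = v → v ∈ d.C := by
    intro v hv hxv
    have hz0ne : z0 ≠ 1 := z_ne hT
    have hcfix : ∀ c ∈ d.C, x * c * x⁻¹ = c := fun c hc => by
      rw [hc.2 x hxH, mul_inv_cancel_right]
    have hne1 : z1 ≠ z0 := fun e => hz1Z (e ▸ z_mem hT)
    rcases V_cases hT hz1V hz1Z hv with h | h
    · rcases Z_cases hT h with h' | h'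
      · exact h'
      · exfalso
        have e := hcfix _ h'
        rw [show x * (v * z0) * x⁻¹ = (x * v * x⁻¹) * (x * z0 * x⁻¹) by group, hxv, hx0] at e
        exact hne1 (mul_left_cancel e)
    · exfalso
      rcases Z_cases hT h with h' | h'
      · have e := hcfix _ h'
        rw [show x * (v * z1) * x⁻¹ = (x * v * x⁻¹) * (x * z1 * x⁻¹) by group, hxv, hx1] at e
        exact hz0ne (mul_eq_right.1 (mul_left_cancel e))
      · have e := hcfix _ h'
        rw [show x * (v * z1 * z0) * x⁻¹ = (x * v * x⁻¹) * (x * z1 * x⁻¹) * (x * z0 * x⁻¹) by group,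
          hxv, hx1, hx0, mul_assoc v, mul_assoc v, mul_assoc z0, d.sq_V hz1V, mul_one] at e
        exact hz1Z (by rw [mul_eq_right.1 (mul_left_cancel e).symm]; exact one_mem _)
  -- inside `H`
  let V₁ : Subgroup d.H := d.V.subgroupOf d.H
  have hV₁n : V₁.Normal := normal_subgroupOf_of_le_normalizer d.HnV
  have hV₁p : IsPGroup 2 V₁ :=
    (d.pgroup.to_le d.VP).of_equiv (subgroupOfEquivOfLe (d.VP.trans d.PH)).symm
  haveI := hV₁n
  let K : Subgroup d.H := centralizer (V₁ : Set d.H)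
  haveI hKn : K.Normal := Subgroup.normal_centralizer
  have hV₁K : V₁ ≤ K := fun v hv w hw => Subtype.ext (d.comm_VQ (mem_subgroupOf.1 hv)
    (d.VQ (mem_subgroupOf.1 hw)))
  obtain ⟨m, hm, hmQ⟩ := hn
  have hKpow : ∀ k ∈ K, k ^ m ∈ V₁ := fun k hk => mem_subgroupOf.2 (by
    show (((k ^ m : d.H)) : G) ∈ d.V
    rw [← hQV, SubmonoidClass.coe_pow]
    exact hmQ _ k.2 fun v hv =>
      (congrArg Subtype.val (hk ⟨v, d.PH (d.VP hv)⟩ (mem_subgroupOf.2 hv))).symm)
  -- the Sylow subgroup of `K` is central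
  let VK : Subgroup K := V₁.subgroupOf K
  have hVKp : IsPGroup 2 VK := hV₁p.of_equiv (subgroupOfEquivOfLe hV₁K).symm
  haveI hVKn : VK.Normal := normal_subgroupOf_of_le_normalizer (le_normalizer_of_normal)
  have hVKi : ¬ 2 ∣ VK.index := by
    intro h2
    rw [index_eq_card] at h2
    obtain ⟨w, hw⟩ := exists_prime_orderOf_dvd_card' (G := K ⧸ VK) 2 h2
    induction w using QuotientGroup.induction_on with
    | _ k =>
      have h1 : (k : K ⧸ VK) ^ m = 1 := by
        rw [← QuotientGroup.mk_pow, QuotientGroup.eq_one_iff, mem_subgroupOf]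
        exact hKpow _ k.2
      have h3 := orderOf_dvd_of_pow_eq_one h1
      rw [hw] at h3
      exact Nat.not_even_iff_odd.2 hm (even_iff_two_dvd.2 h3)
  let SK : Sylow 2 K := hVKp.toSylow hVKi
  have hNPC : Cfsg.HasNormalPComplement 2 K := by
    refine Transfer.hasNormalPComplement_of_normalizer_le_centralizer SK ?_
    intro k _ w hw
    exact Subtype.ext (k.2 _ (mem_subgroupOf.1 hw))
  obtain ⟨N, hN', hNc⟩ := (Transfer.hasNormalPComplement_iff_exists SK).1 hNPC
  have hNodd : Odd (Nat.card N) := by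
    rw [← Nat.not_even_iff_odd, even_iff_two_dvd, ← hNc.index_eq_card]
    exact hVKi
  have hNmem : ∀ k : K, k ∈ N ↔ Odd (orderOf k) := by
    intro k
    constructor
    · intro hk
      exact Odd.of_dvd_nat hNodd (Subgroup.orderOf_dvd_natCard _ hk)
    · intro hk
      have h1 : (k : K ⧸ N) ^ Nat.card VK = 1 := by
        have hi : N.index = Nat.card VK := hNc.symm.index_eq_card
        rw [← hi, index_eq_card, pow_card_eq_one']
      obtain ⟨e, he⟩ := hVKp.exists_card_eq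
      rw [← QuotientGroup.eq_one_iff, ← orderOf_eq_one_iff]
      exact Nat.eq_one_of_dvd_coprimes ((Nat.coprime_two_left.2 hk).pow_left e)
        (he ▸ orderOf_dvd_of_pow_eq_one h1) (orderOf_map_dvd (QuotientGroup.mk' N) k)
  have hNn : (N.map K.subtype).Normal := by
    refine ⟨fun y hy g => ?_⟩
    obtain ⟨k, hk, rfl⟩ := hy
    refine ⟨⟨g * k * g⁻¹, hKn.conj_mem _ k.2 g⟩, ?_, rfl⟩
    rw [SetLike.mem_coe, hNmem] at *
    rw [← Subgroup.orderOf_coe] at hk ⊢
    show Odd (orderOf (g * (k : d.H) * g⁻¹))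
    rw [show g * (k : d.H) * g⁻¹ = MulAut.conj g (k : d.H) by simp, MulEquiv.orderOf_eq]
    exact hk
  set O := Cfsg.oddCore d.H with hOdef
  have hKle : K ≤ O ⊔ V₁ := by
    have h := hNc.sup_eq_top
    have hN2 : N.map K.subtype ≤ O := Cores.le_oddCore hNn
      (by rw [card_map_of_injective K.subtype_injective]; exact hNodd)
    intro k hk
    have : (⟨k, hk⟩ : K) ∈ N ⊔ (SK : Subgroup K) := by rw [h]; exact mem_top _
    have h' := mem_map_of_mem K.subtype this
    rw [Subgroup.map_sup] at h'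
    refine SetLike.le_def.1 (sup_le_sup hN2 ?_) h'
    rintro _ ⟨w, hw, rfl⟩
    exact mem_subgroupOf.1 hw
  -- the quotient
  let ρ := QuotientGroup.mk' O
  have hdisj : O ⊓ V₁ = ⊥ := oddCore_inf_eq_bot hV₁p
  have hinjV : ∀ v ∈ V₁, ρ v = 1 → v = 1 := fun v hv h => by
    have : v ∈ O ⊓ V₁ := ⟨(QuotientGroup.eq_one_iff v).1 h, hv⟩
    rwa [hdisj, mem_bot] at this
  have hcentV : ∀ g : d.H, (∀ v ∈ V₁, ρ g * ρ v = ρ v * ρ g) → g ∈ K := by
    intro g hg v hv
    have h1 : g * v * g⁻¹ * v⁻¹ ∈ V₁ := mul_mem (hV₁n.conj_mem v hv g) (inv_mem hv)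
    have h2 := hinjV _ h1 (by
      rw [map_mul, map_mul, map_mul, hg v hv, map_inv, map_inv]; group)
    exact (mul_inv_eq_iff_eq_mul.1 (mul_inv_eq_one.1 h2)).symm
  let Z0 : d.H := ⟨z0, d.PH (d.VP hz0V)⟩
  let Z1 : d.H := ⟨z1, d.PH (d.VP hz1V)⟩
  let A : d.H := ⟨u, d.PH huP⟩
  let B : d.H := ⟨u', hu'H⟩
  have hZ0 : Z0 ∈ V₁ := mem_subgroupOf.2 hz0V
  have hZ1 : Z1 ∈ V₁ := mem_subgroupOf.2 hz1V
  let Vb := V₁.map ρ
  haveI hVbn : Vb.Normal := Subgroup.Normal.map hV₁n ρ (QuotientGroup.mk'_surjective O)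
  have hVbcent : ∀ y : d.H ⧸ O, (∀ v ∈ Vb, y * v = v * y) → y ∈ Vb := by
    intro y hy
    obtain ⟨g, rfl⟩ := QuotientGroup.mk'_surjective O y
    have hgK : g ∈ K := hcentV g fun v hv => hy _ (mem_map_of_mem ρ hv)
    have h := mem_map_of_mem ρ (hKle hgK)
    rwa [Subgroup.map_sup, show O.map ρ = ⊥ from (Subgroup.map_eq_bot_iff _).2
      (QuotientGroup.ker_mk' O).ge, bot_sup_eq] at h
  -- the three cube
  have hXK : (A * B) ^ 3 ∈ K := fun v hv => Subtype.ext (by
    push_cast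
    exact (hx3 _ (mem_subgroupOf.1 hv)).symm)
  obtain ⟨w, hw, hwe⟩ : ρ ((A * B) ^ 3) ∈ Vb := by
    have h := mem_map_of_mem ρ (hKle hXK)
    rwa [Subgroup.map_sup, show O.map ρ = ⊥ from (Subgroup.map_eq_bot_iff _).2
      (QuotientGroup.ker_mk' O).ge, bot_sup_eq] at h
  have hwC : (w : G) ∈ d.C := by
    refine hfix _ (mem_subgroupOf.1 hw) ?_
    have h2 : (A * B) * w * (A * B)⁻¹ * w⁻¹ ∈ V₁ := mul_mem (hV₁n.conj_mem w hw _) (inv_mem hw)
    have h3 := hinjV _ h2 (by
      rw [map_mul, map_mul, map_mul, map_inv, map_inv, hwe, map_pow]; group)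
    exact congrArg (fun t : d.H => (t : G)) (mul_inv_eq_one.1 h3)
  -- adjust the second involution
  let B' : d.H := B * w
  have hwcomm : ∀ g : d.H, g * w = w * g := fun g => Subtype.ext (hwC.2 (g : G) g.2)
  have hA2 : ρ A * ρ A = 1 := by
    rw [← map_mul, show A * A = 1 from Subtype.ext hu2, map_one]
  have hw2 : w * w = 1 := Subtype.ext (d.sq_V (mem_subgroupOf.1 hw))
  have hB2 : B * B = 1 := Subtype.ext (by
    show u' * u' = 1
    rw [hu'def, show d.h * u * d.h⁻¹ * (d.h * u * d.h⁻¹) = d.h * (u * u) * d.h⁻¹ by group, hu2]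
    group)
  have hB'2 : ρ B' * ρ B' = 1 := by
    rw [← map_mul, show B' * B' = B * (w * B) * w by simp only [B', mul_assoc], ← hwcomm B,
      show B * (B * w) * w = (B * B) * (w * w) by simp only [mul_assoc], hB2, hw2, one_mul, map_one]
  have hAB : (ρ A * ρ B') ^ 3 = 1 := by
    rw [← map_mul, ← map_pow, show A * B' = A * B * w from (mul_assoc _ _ _).symm,
      Commute.mul_pow (hwcomm (A * B)), map_mul, ← hwe, ← map_mul,
      show w * w ^ 3 = (w * w) * (w * w) by simp only [pow_succ, pow_zero, one_mul, mul_assoc], hw2, one_mul, map_one]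
  let E : Subgroup (d.H ⧸ O) := closure {ρ Z0, ρ Z1}
  let D : Subgroup (d.H ⧸ O) := closure {ρ A, ρ B'}
  have hE2 : ∀ e ∈ E, e = 1 ∨ e = ρ Z0 ∨ e = ρ Z1 ∨ e = ρ Z0 * ρ Z1 := by
    have h00 : ρ Z0 * ρ Z0 = 1 := by
      rw [← map_mul, show Z0 * Z0 = 1 from Subtype.ext (d.sq_V hz0V), map_one]
    have h11 : ρ Z1 * ρ Z1 = 1 := by
      rw [← map_mul, show Z1 * Z1 = 1 from Subtype.ext (d.sq_V hz1V), map_one]
    have h01 : ρ Z1 * ρ Z0 = ρ Z0 * ρ Z1 := by
      rw [← map_mul, ← map_mul, show Z1 * Z0 = Z0 * Z1 from Subtype.ext hz01.symm]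
    intro e he
    induction he using closure_induction with
    | mem t ht =>
      rcases ht with rfl | rfl
      · exact Or.inr (Or.inl rfl)
      · exact Or.inr (Or.inr (Or.inl rfl))
    | one => exact Or.inl rfl
    | mul a b _ _ ha hb =>
      have e1 : ρ Z1 * (ρ Z0 * ρ Z1) = ρ Z0 := by rw [← mul_assoc, h01, mul_assoc, h11, mul_one]
      have e2 : ρ Z0 * (ρ Z0 * ρ Z1) = ρ Z1 := by rw [← mul_assoc, h00, one_mul]
      have e3 : ρ Z0 * ρ Z1 * ρ Z0 = ρ Z1 := by rw [mul_assoc, h01, e2]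
      have e4 : ρ Z0 * ρ Z1 * ρ Z1 = ρ Z0 := by rw [mul_assoc, h11, mul_one]
      have e5 : ρ Z0 * ρ Z1 * (ρ Z0 * ρ Z1) = 1 := by rw [← mul_assoc, e3, h11]
      rcases ha with rfl | rfl | rfl | rfl <;> rcases hb with rfl | rfl | rfl | rfl <;>
        simp only [one_mul, mul_one, h00, h11, h01, e1, e2, e3, e4, e5] <;> tauto
    | inv a _ ha =>
      have e0 : (ρ Z0)⁻¹ = ρ Z0 := inv_eq_of_mul_eq_one_right h00
      have e1 : (ρ Z1)⁻¹ = ρ Z1 := inv_eq_of_mul_eq_one_right h11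
      rcases ha with rfl | rfl | rfl | rfl <;> simp only [inv_one, mul_inv_rev, e0, e1, h01] <;> tauto
  have hEV : E ≤ Vb := by
    rw [closure_le]
    rintro _ (rfl | rfl)
    · exact mem_map_of_mem ρ hZ0
    · exact mem_map_of_mem ρ hZ1
  have hne : ∀ (s t : d.H), s ∈ V₁ → t ∈ V₁ → (s : G) ≠ t → ρ s ≠ ρ t := by
    intro s t hs ht hst e
    apply hst
    have := hinjV _ (mul_mem hs (inv_mem ht)) (by rw [map_mul, map_inv, e, mul_inv_cancel])
    rw [mul_inv_eq_one.1 this]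
  have hEc : Nat.card E = 4 := by
    have hz0ne : z0 ≠ 1 := z_ne hT
    have hz1ne : z1 ≠ 1 := fun e => hz1Z (e ▸ one_mem _)
    have a1 : ρ Z0 ≠ 1 := by rw [← map_one ρ]; exact hne _ _ hZ0 (one_mem _) hz0ne
    have a2 : ρ Z1 ≠ 1 := by rw [← map_one ρ]; exact hne _ _ hZ1 (one_mem _) hz1ne
    have a3 : ρ Z0 ≠ ρ Z1 := hne _ _ hZ0 hZ1 fun e => hz1Z (show z1 ∈ d.Z from
      (show z0 = z1 from e) ▸ z_mem hT)
    have a4 : ρ Z0 * ρ Z1 ≠ 1 := by
      rw [← map_mul, ← map_one ρ]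
      refine hne _ _ (mul_mem hZ0 hZ1) (one_mem _) fun e => hz1Z ?_
      have : z1 = z0⁻¹ := eq_inv_of_mul_eq_one_right (show z0 * z1 = 1 from e)
      rw [this]; exact inv_mem (z_mem hT)
    have a5 : ρ Z0 * ρ Z1 ≠ ρ Z0 := fun e => a2 (mul_eq_left.1 e)
    have a6 : ρ Z0 * ρ Z1 ≠ ρ Z1 := fun e => a1 (mul_eq_right.1 e)
    have hset : (E : Set (d.H ⧸ O)) = ({1, ρ Z0, ρ Z1, ρ Z0 * ρ Z1} : Finset (d.H ⧸ O)) := by
      ext e
      simp only [SetLike.mem_coe, Finset.coe_insert, Finset.coe_singleton, Set.mem_insert_iff,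
        Set.mem_singleton_iff]
      refine ⟨hE2 e, ?_⟩
      rintro (rfl | rfl | rfl | rfl)
      · exact one_mem _
      · exact subset_closure (Or.inl rfl)
      · exact subset_closure (Or.inr rfl)
      · exact mul_mem (subset_closure (Or.inl rfl)) (subset_closure (Or.inr rfl))
    rw [← SetLike.coe_sort_coe, Nat.card_coe_set_eq, hset, Set.ncard_coe_finset]
    rw [Finset.card_insert_of_notMem, Finset.card_insert_of_notMem, Finset.card_insert_of_notMem,
      Finset.card_singleton] <;> simp [a1.symm, a2.symm, a3, a4.symm, a5.symm, a6.symm]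
  have hconjE : ∀ g : d.H, ((g : G) * z0 * (g : G)⁻¹ = z0 ∧ (g : G) * z1 * (g : G)⁻¹ = z1 * z0) ∨
      ((g : G) * z1 * (g : G)⁻¹ = z1 ∧ (g : G) * z0 * (g : G)⁻¹ = z0 * z1) →
      ρ g ∈ normalizer (E : Set (d.H ⧸ O)) := by
    intro g hg
    refine mem_normalizer_iff_map_conj_eq.2 (eq_of_le_of_card_ge ?_
      (card_map_of_injective (MulAut.conj (ρ g)).injective).ge)
    rw [MonoidHom.map_closure, closure_le]
    have key : ∀ (s t : d.H), (g : G) * s * (g : G)⁻¹ = t → ρ g * ρ s * (ρ g)⁻¹ = ρ t := by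
      intro s t e
      rw [← map_mul, ← map_inv, ← map_mul, show g * s * g⁻¹ = t from Subtype.ext e]
    rintro _ ⟨_, (rfl | rfl), rfl⟩
    · show ρ g * ρ Z0 * (ρ g)⁻¹ ∈ E
      rcases hg with ⟨h, -⟩ | ⟨-, h⟩
      · rw [key Z0 Z0 h]; exact subset_closure (Or.inl rfl)
      · rw [key Z0 (Z0 * Z1) h, map_mul]
        exact mul_mem (subset_closure (Or.inl rfl)) (subset_closure (Or.inr rfl))
    · show ρ g * ρ Z1 * (ρ g)⁻¹ ∈ E
      rcases hg with ⟨-, h⟩ | ⟨h, -⟩
      · rw [key Z1 (Z1 * Z0) h, map_mul]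
        exact mul_mem (subset_closure (Or.inr rfl)) (subset_closure (Or.inl rfl))
      · rw [key Z1 Z1 h]; exact subset_closure (Or.inr rfl)
  have hwfix : ∀ s ∈ d.V, (B' : G) * s * (B' : G)⁻¹ = u' * s * u'⁻¹ := by
    intro s hs
    show u' * (w : G) * s * (u' * (w : G))⁻¹ = _
    calc u' * (w : G) * s * (u' * (w : G))⁻¹ = u' * ((w : G) * s) * (w : G)⁻¹ * u'⁻¹ := by group
      _ = _ := by rw [d.comm_VQ hs (d.VQ hwC.1)]; group
  have hAE : ρ A ∈ normalizer (E : Set (d.H ⧸ O)) := hconjE A (Or.inl ⟨hu0, hu1⟩)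
  have hBE : ρ B' ∈ normalizer (E : Set (d.H ⧸ O)) := hconjE B' (Or.inr
    ⟨by rw [hwfix _ hz1V, hu'1], by rw [hwfix _ hz0V, hu'0]⟩)
  have hDE : D ≤ normalizer (E : Set (d.H ⧸ O)) := by
    rw [closure_le]
    rintro _ (rfl | rfl)
    · exact hAE
    · exact hBE
  have hDc : Nat.card D ≤ 6 := SimsLocal.closure_pair_card_le hA2 hB'2 (by norm_num) hAB
  set X := ρ A * ρ B' with hXdef
  have hX1 : X ≠ 1 := by
    intro e
    rw [hXdef, ← map_mul] at e
    have h1 : A * B' * Z0 * (A * B')⁻¹ * Z0⁻¹ ∈ V₁ :=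
      mul_mem (hV₁n.conj_mem Z0 hZ0 _) (inv_mem hZ0)
    have h2 := hinjV _ h1 (by rw [map_mul, map_mul, map_mul, map_inv, e]; simp)
    have h3 : u * (u' * (w : G)) * z0 * (u * (u' * (w : G)))⁻¹ = z0 :=
      congrArg (fun t : d.H => (t : G)) (mul_inv_eq_one.1 h2)
    rw [show u * (u' * (w : G)) * z0 * (u * (u' * (w : G)))⁻¹ =
      x * ((w : G) * z0) * (w : G)⁻¹ * x⁻¹ by rw [hxdef]; group,
      d.comm_VQ hz0V (d.VQ hwC.1), mul_assoc x, mul_inv_cancel_right, hx0] at h3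
    exact hz1Z (h3 ▸ z_mem hT)
  have hA1 : ρ A ≠ 1 := by
    intro e
    apply huQ
    have hK : A ∈ K := hcentV A fun v _ => by rw [e]; simp
    have := congrArg Subtype.val (hK Z1 hZ1)
    exfalso
    apply z_ne hT
    rw [← z_spec hT hz1V hz1Z huP huQ]
    exact commutatorElement_eq_one_iff_mul_comm.2 this
  have hD6 : Nat.card D = 6 := by
    have h3 : 3 ∣ Nat.card D := by
      rw [← orderOf_eq_prime (p := 3) hAB hX1]
      exact Subgroup.orderOf_dvd_natCard _
        (mul_mem (subset_closure (Or.inl rfl)) (subset_closure (Or.inr rfl)))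
    have h2 : 2 ∣ Nat.card D := by
      have e : orderOf (ρ A) = 2 := orderOf_eq_prime (by rw [pow_two]; exact hA2) hA1
      have h := Subgroup.orderOf_dvd_natCard D (x := ρ A) (subset_closure (Or.inl rfl))
      rwa [e] at h
    have := Nat.le_of_dvd Nat.card_pos (Nat.Coprime.mul_dvd_of_dvd_of_dvd (by norm_num) h2 h3)
    omega
  have hVbcomm : ∀ s ∈ Vb, ∀ t ∈ Vb, s * t = t * s := by
    rintro _ ⟨s, hs, rfl⟩ _ ⟨t, ht, rfl⟩
    rw [← map_mul, ← map_mul, show s * t = t * s from Subtype.ext (d.comm_VQ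
      (mem_subgroupOf.1 ht) (d.VQ (mem_subgroupOf.1 hs)))]
  -- `D` meets `V` trivially
  have hDV : D ⊓ Vb = ⊥ := by
    by_contra hne'
    obtain ⟨n, hnDV, hn1⟩ := (Subgroup.bot_or_exists_ne_one (D ⊓ Vb)).resolve_left hne'
    have hn2 : n * n = 1 := by
      obtain ⟨s, hs, rfl⟩ := hnDV.2
      rw [← map_mul, show s * s = 1 from Subtype.ext (d.sq_V (mem_subgroupOf.1 hs)), map_one]
    have hAV : ρ A ∉ Vb := by
      intro h
      have hK : A ∈ K := hcentV A fun v hv => hVbcomm _ h _ (mem_map_of_mem ρ hv)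
      have := congrArg Subtype.val (hK Z1 hZ1)
      apply z_ne hT
      rw [← z_spec hT hz1V hz1Z huP huQ]
      exact commutatorElement_eq_one_iff_mul_comm.2 this
    -- the normal subgroup has order two
    let N₀ : Subgroup D := (D ⊓ Vb).subgroupOf D
    haveI hN₀ : N₀.Normal := by
      rw [show N₀ = Vb.subgroupOf D from inf_subgroupOf_left Vb D]
      infer_instance
    have hN₀p : IsPGroup 2 N₀ := by
      refine isPGroup_iff_pow_pow_eq_one.2 fun t => ⟨1, Subtype.ext (Subtype.ext ?_)⟩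
      obtain ⟨s, hs, hse⟩ := (mem_subgroupOf.1 t.2).2
      show ((t : D) : d.H ⧸ O) ^ (2 ^ 1) = 1
      rw [← hse, pow_one, pow_two, ← map_mul,
        show s * s = 1 from Subtype.ext (d.sq_V (mem_subgroupOf.1 hs)), map_one]
    obtain ⟨e, he⟩ := hN₀p.exists_card_eq
    have hd := card_subgroup_dvd_card N₀
    rw [he, hD6] at hd
    have he1 : e ≤ 1 := by
      by_contra hgt
      have := (pow_dvd_pow 2 (show 2 ≤ e by omega)).trans hd
      norm_num at this
    have hN₀el : ∀ t ∈ D ⊓ Vb, t = 1 ∨ t = n := by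
      intro t ht
      by_contra hcon
      push Not at hcon
      have h3 : 3 ≤ Nat.card N₀ := by
        let f : Fin 3 → N₀ := ![1, ⟨⟨n, hnDV.1⟩, mem_subgroupOf.2 hnDV⟩,
          ⟨⟨t, ht.1⟩, mem_subgroupOf.2 ht⟩]
        have hf : Function.Injective f := by
          intro i j hij
          fin_cases i <;> fin_cases j <;> first
            | rfl
            | (exfalso
               have hij' := congrArg (fun s : N₀ => ((s : D) : d.H ⧸ O)) hij
               simp [f] at hij'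
               first
                 | exact hn1 hij'
                 | exact hn1 hij'.symm
                 | exact hcon.1 hij'
                 | exact hcon.1 hij'.symm
                 | exact hcon.2 hij'
                 | exact hcon.2 hij'.symm)
        simpa using Nat.card_le_card_of_injective f hf
      rw [he] at h3
      interval_cases e <;> omega
    have hAn : ρ A * n = n * ρ A := by
      rcases hN₀el (ρ A * n * (ρ A)⁻¹)
        ⟨mul_mem (mul_mem (subset_closure (Or.inl rfl)) hnDV.1) (D.inv_mem (subset_closure (Or.inl rfl))),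
          hVbn.conj_mem n hnDV.2 _⟩ with h | h
      · exact absurd (conj_eq_one_iff.1 h) hn1
      · exact mul_inv_eq_iff_eq_mul.1 h
    -- a four-group in a group of order six
    let F₀ : Subgroup (d.H ⧸ O) := (D ⊓ Vb) ⊔ zpowers (ρ A)
    have hF₀ : F₀ ≤ D := sup_le inf_le_left (zpowers_le.2 (subset_closure (Or.inl rfl)))
    have hF4 : Nat.card F₀ = 4 := by
      have hc2 : Nat.card ↥(D ⊓ Vb) = 2 := by
        rw [card_two bot_le hnDV (by rwa [mem_bot]) fun t ht => ?_]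
        · simp
        · rcases hN₀el t ht with h | h
          · exact Or.inl (mem_bot.2 h)
          · exact Or.inr (by rw [mem_bot, h, hn2])
      rw [card_two (Y := F₀) (le_sup_left) (mem_sup_right (mem_zpowers _)) (fun h => hAV h.2) ?_, hc2]
      intro t ht
      have hnorm : zpowers (ρ A) ≤ normalizer ((D ⊓ Vb : Subgroup (d.H ⧸ O)) : Set (d.H ⧸ O)) := by
        rw [zpowers_le]
        refine mem_normalizer_of_cj (le_antisymm ?_ fun s hs => ?_)
        · rintro _ ⟨s, hs, rfl⟩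
          rcases hN₀el s hs with h | h <;> subst h
          · simp
          · show ρ A * s * (ρ A)⁻¹ ∈ D ⊓ Vb
            rw [hAn, mul_inv_cancel_right]; exact hs
        · rw [mem_cj]
          rcases hN₀el s hs with h | h <;> subst h
          · simp
          · rw [mul_assoc, ← hAn]
            simpa using hs
      obtain ⟨s, hs, r, hr, rfl⟩ :=
        Coprime.exists_mul_of_mem_sup (A := zpowers (ρ A)) (K := D ⊓ Vb) hnorm
          (g := t) (by rwa [sup_comm])
      obtain ⟨i, rfl⟩ : ∃ i : ℕ, ρ A ^ i = s := mem_powers_iff_mem_zpowers.2 hs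
      have hpow : ρ A ^ i = 1 ∨ ρ A ^ i = ρ A := by
        clear hs ht
        induction i with
        | zero => exact Or.inl (pow_zero _)
        | succ i ih =>
          rcases ih with h | h <;> rw [pow_succ, h]
          · exact Or.inr (one_mul _)
          · exact Or.inl hA2
      rcases hpow with hj | hj
      · left
        rw [hj, one_mul]; exact hr
      · right
        rw [hj]
        exact (mem_normalizer_iff.1 (hnorm (mem_zpowers _)) r).1 hr |> fun h => by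
          rwa [inv_eq_of_mul_eq_one_right hA2] at h
    have := card_dvd_of_le hF₀
    rw [hF4, hD6] at this
    norm_num at this
  have hED : E ⊓ D = ⊥ := eq_bot_iff.2 fun t ht => (hDV.le ⟨ht.2, hEV ht.1⟩ :)
  -- order twenty-four
  let M0 : Subgroup (d.H ⧸ O) := E ⊔ D
  have hM0 : Nat.card M0 = 24 := by
    show Nat.card ↥(E ⊔ D) = 24
    rw [sup_comm, Coprime.card_sup_of_disjoint hDE (by rw [inf_comm]; exact hED), hD6, hEc]
  have hM0norm : M0 ≤ normalizer (E : Set (d.H ⧸ O)) := sup_le le_normalizer hDE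
  have hcentC : ∀ c ∈ d.C, ∀ hcH : c ∈ d.H, ∀ t : d.H ⧸ O,
      t * ρ ⟨c, hcH⟩ = ρ ⟨c, hcH⟩ * t := by
    intro c hc hcH t
    obtain ⟨g, rfl⟩ := QuotientGroup.mk'_surjective O t
    rw [← map_mul, ← map_mul, show g * ⟨c, hcH⟩ = ⟨c, hcH⟩ * g from Subtype.ext (hc.2 (g : G) g.2)]
  -- generation
  have hgenH : ∀ X₀ : Subgroup (d.H ⧸ O), Vb ≤ X₀ → ρ A ∈ X₀ → ρ B' ∈ X₀ → X₀ = ⊤ := by
    intro X₀ hV hA hB
    let Xg : Subgroup G := (X₀.comap ρ).map d.H.subtype
    have hmemX : ∀ (g : G) (hg : g ∈ d.H), g ∈ Xg ↔ ρ ⟨g, hg⟩ ∈ X₀ := by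
      intro g hg
      constructor
      · rintro ⟨g', hg', e⟩
        rwa [show (⟨g, hg⟩ : d.H) = g' from Subtype.ext e.symm]
      · intro h; exact ⟨⟨g, hg⟩, h, rfl⟩
    have hQX : d.Q ≤ Xg := by
      intro q hq
      exact (hmemX q (d.QH hq)).2 (hV (mem_map_of_mem ρ (mem_subgroupOf.2 (hQV.le hq))))
    have huX : u ∈ Xg := (hmemX u (d.PH huP)).2 hA
    have hu'X : u' ∈ Xg := by
      refine (hmemX u' hu'H).2 ?_
      have h := X₀.mul_mem hB (X₀.inv_mem (hV (mem_map_of_mem ρ hw)))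
      rwa [← map_inv, ← map_mul, mul_inv_cancel_right] at h
    have hHX : d.H ≤ Xg := by
      refine d.gen _ (d.P_le hQX huP huQ huX) ?_
      rw [cj_le_iff]
      refine d.P_le ?_ huP huQ (mem_cj.2 (by rw [inv_inv]; exact hu'X))
      intro q hq
      rw [mem_cj, inv_inv]
      exact hQX ((mem_normalizer_iff.1 (d.Qn d.hmem) q).1 hq)
    rw [eq_top_iff]
    intro t _
    obtain ⟨g, rfl⟩ := QuotientGroup.mk'_surjective O t
    exact (hmemX g g.2).1 (hHX g.2)
  have hVb : ∀ v ∈ Vb, v ∈ E ∨ ∃ c ∈ d.C, c ≠ 1 ∧ ∃ hcH : c ∈ d.H, v * ρ ⟨c, hcH⟩ ∈ E := by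
    rintro _ ⟨v, hv, rfl⟩
    have hv' : (v : G) ∈ d.V := mem_subgroupOf.1 hv
    have key : ∀ c ∈ d.C, ∀ (e : d.H), ρ e ∈ E → (v : G) = c * e →
        ρ v ∈ E ∨ ∃ c ∈ d.C, c ≠ 1 ∧ ∃ hcH : c ∈ d.H, ρ v * ρ ⟨c, hcH⟩ ∈ E := by
      intro c hc e he hve
      by_cases hc1 : c = 1
      · left
        rwa [show v = e from Subtype.ext (by rw [hve, hc1, one_mul])]
      · refine Or.inr ⟨c, hc, hc1, d.PH (d.VP hc.1), ?_⟩
        rw [← map_mul, show v * ⟨c, d.PH (d.VP hc.1)⟩ = e from Subtype.ext (by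
          show (v : G) * c = e
          rw [hve, mul_assoc, hc.2 _ e.2, ← mul_assoc, d.sq_V hc.1, one_mul])]
        exact he
    have s0 : ρ Z0 ∈ E := subset_closure (Or.inl rfl)
    have s1 : ρ Z1 ∈ E := subset_closure (Or.inr rfl)
    rcases V_cases hT hz1V hz1Z hv' with h | h
    · rcases Z_cases hT h with h' | h'
      · exact key _ h' 1 (by rw [map_one]; exact one_mem _) (mul_one _).symm
      · exact key _ h' Z0 s0 (by show (v : G) = (v : G) * z0 * z0; rw [mul_assoc, d.sq_V hz0V, mul_one])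
    · rcases Z_cases hT h with h' | h'
      · exact key _ h' Z1 s1 (by show (v : G) = (v : G) * z1 * z1; rw [mul_assoc, d.sq_V hz1V, mul_one])
      · exact key _ h' (Z0 * Z1) (by rw [map_mul]; exact mul_mem s0 s1) (by
          show (v : G) = (v : G) * z1 * z0 * (z0 * z1)
          rw [show (v : G) * z1 * z0 * (z0 * z1) = (v : G) * z1 * (z0 * z0) * z1 by group,
            d.sq_V hz0V, mul_one, mul_assoc, d.sq_V hz1V, mul_one])
  have hE_M0 : E ≤ M0 := le_sup_left
  have hMsurj : ∀ t : d.H ⧸ O, t ∈ M0 ⊔ Vb := fun t => by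
    rw [hgenH (M0 ⊔ Vb) le_sup_right (mem_sup_left (mem_sup_right (subset_closure (Or.inl rfl))))
      (mem_sup_left (mem_sup_right (subset_closure (Or.inr rfl))))]
    exact mem_top t
  have hC₀ : M0 ⊓ centralizer (E : Set (d.H ⧸ O)) ≤ E := by
    intro t ht
    obtain ⟨s, hs, r, hr, rfl⟩ :=
      Coprime.exists_mul_of_mem_sup (A := D) (K := E) hDE (g := t) (by rw [sup_comm]; exact ht.1)
    have hsc : s ∈ centralizer (E : Set (d.H ⧸ O)) := by
      have := mul_mem ht.2 ((centralizer (E : Set (d.H ⧸ O))).inv_mem (show r ∈ centralizer (E : Set (d.H ⧸ O)) from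
        fun e he => hVbcomm _ (hEV he) _ (hEV hr)))
      rwa [mul_inv_cancel_right] at this
    have hsV : s ∈ Vb := hVbcent s fun v hv => by
      rcases hVb v hv with h | ⟨c, hc, -, hcH, h⟩
      · exact (hsc v h).symm
      · have h1 := (hsc _ h).symm
        have h2 := hcentC c hc hcH s
        apply mul_right_cancel (b := ρ ⟨c, hcH⟩)
        rw [mul_assoc, h1, mul_assoc v, ← h2]
        simp only [mul_assoc]
    have : s ∈ D ⊓ Vb := ⟨hs, hsV⟩
    rw [hDV, mem_bot] at this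
    rw [this, one_mul]; exact hr
  obtain ⟨e⟩ := SimsLocal.nonempty_equiv_perm_four (M := M0) (E := E) (a := ρ A) (b := ρ B')
    hE_M0 (mem_sup_right (subset_closure (Or.inl rfl)))
    (mem_sup_right (subset_closure (Or.inr rfl))) hA2 hB'2 hAB hM0norm hEc hM0 le_rfl hC₀
  rcases hC with hC | hC
  · left
    have htop : M0 = ⊤ := by
      refine hgenH M0 (fun v hv => ?_) (mem_sup_right (subset_closure (Or.inl rfl)))
        (mem_sup_right (subset_closure (Or.inr rfl)))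
      rcases hVb v hv with h | ⟨c, hc, hc1, -, -⟩
      · exact hE_M0 h
      · rw [hC, mem_bot] at hc; exact absurd hc hc1
    exact ⟨(Subgroup.topEquiv.symm.trans (MulEquiv.subgroupCongr htop.symm)).trans e⟩
  · right
    obtain ⟨c, hc, hc1⟩ := (Subgroup.bot_or_exists_ne_one d.C).resolve_left (fun h => by
      rw [h, card_bot] at hC; omega)
    have hcH : c ∈ d.H := d.PH (d.VP hc.1)
    have hcne : ρ ⟨c, hcH⟩ ≠ 1 := by
      rw [← map_one ρ]; exact hne _ _ (mem_subgroupOf.2 hc.1) (one_mem _) hc1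
    have hcc : ρ ⟨c, hcH⟩ * ρ ⟨c, hcH⟩ = 1 := by
      rw [← map_mul, show (⟨c, hcH⟩ : d.H) * ⟨c, hcH⟩ = 1 from Subtype.ext (d.sq_V hc.1), map_one]
    have hVbE : ∀ v ∈ Vb, v ∈ E ∨ v * ρ ⟨c, hcH⟩ ∈ E := by
      intro v hv
      rcases hVb v hv with h | ⟨c', hc', hc1', hcH', h⟩
      · exact Or.inl h
      · have e := C_unique hT hc' hc1' hc hc1
        subst e
        exact Or.inr h
    have hcM : ρ ⟨c, hcH⟩ ∉ M0 := by
      intro hcM
      have htop : M0 = ⊤ := by
        refine hgenH M0 (fun v hv => ?_) (mem_sup_right (subset_closure (Or.inl rfl)))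
          (mem_sup_right (subset_closure (Or.inr rfl)))
        rcases hVbE v hv with h | h
        · exact hE_M0 h
        · have := mul_mem (hE_M0 h) (inv_mem hcM)
          rwa [mul_inv_cancel_right] at this
      -- then `c` would centralise, hence lie in, `E`
      have hcE : ρ ⟨c, hcH⟩ ∈ E := hC₀ ⟨hcM, fun t _ => hcentC c hc hcH t⟩
      have hcA := hcentC c hc hcH (ρ A)
      have hcB := hcentC c hc hcH (ρ B')
      rcases hE2 _ hcE with h | h | h | h
      · exact hcne h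
      · have := hne ⟨c, hcH⟩ Z0 (mem_subgroupOf.2 hc.1) hZ0
          (fun e => z_notMem_C hT (show z0 ∈ d.C from (show c = z0 from e) ▸ hc))
        exact this h
      · have := hne ⟨c, hcH⟩ Z1 (mem_subgroupOf.2 hc.1) hZ1
          (fun e => hz1Z (show z1 ∈ d.Z from (show c = z1 from e) ▸ C_le_Z hT hc))
        exact this h
      · rw [← map_mul] at h
        refine hne ⟨c, hcH⟩ (Z0 * Z1) (mem_subgroupOf.2 hc.1) (mul_mem hZ0 hZ1) (fun e => hz1Z ?_) h
        have h' := mul_mem (inv_mem (z_mem hT)) (C_le_Z hT hc)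
        rwa [show c = z0 * z1 from e, ← hz0def, inv_mul_cancel_left] at h'
    refine (SimsLocal.nonempty_equiv_prod (G := (⊤ : Subgroup (d.H ⧸ O))) (M := M0) le_top
      (mem_top (ρ ⟨c, hcH⟩)) hcne hcc hcM (fun g _ => hcentC c hc hcH g) ?_ e).map
      fun e' => Subgroup.topEquiv.symm.trans e'
    intro t _
    have hle : M0 ⊔ Vb ≤ M0 ⊔ zpowers (ρ ⟨c, hcH⟩) := by
      refine sup_le le_sup_left fun v hv => ?_
      rcases hVbE v hv with h | h
      · exact mem_sup_left (hE_M0 h)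
      · have := mul_mem (mem_sup_left (hE_M0 h) : v * ρ ⟨c, hcH⟩ ∈ M0 ⊔ zpowers (ρ ⟨c, hcH⟩))
          (inv_mem (mem_sup_right (mem_zpowers (ρ ⟨c, hcH⟩))))
        rwa [mul_inv_cancel_right] at this
    exact hle (hMsurj t)

end Cfg

end Cfsg.Agent.PushDihedral
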