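import Cfsg.Agent.PushDihedral.Basic

/-!
Pushing up: consequences of a transvection on `Ω₁Z(Q)`.
-/

set_option autoImplicit false
set_option linter.style.haveILetI false
set_option linter.unusedSectionVars false

open Subgroup
open scoped commutatorElement

namespace Cfsg.Agent.PushDihedral.Cfg

variable {G : Type*} [Group G] [Finite G] {d : Cfg G}

/-- No element of `P` outside `Q` centralises `Q`. -/
def NoCentral (d : Cfg G) : Prop := ∀ a ∈ d.P, a ∉ d.Q → ∃ q ∈ d.Q, q * a ≠ a * q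

theorem omega_ne_bot {Q : Subgroup G} (hQ : IsPGroup 2 Q) (hne : Q ≠ ⊥) : omegaZ Q ≠ ⊥ := by
  haveI : Fact (Nat.Prime 2) := ⟨Nat.prime_two⟩
  haveI : Nontrivial Q := Q.nontrivial_iff_ne_bot.2 hne
  haveI := hQ.center_nontrivial
  obtain ⟨k, hk0, hk⟩ := (hQ.to_subgroup (center Q)).nontrivial_iff_card.1 inferInstance
  obtain ⟨z, hz⟩ := exists_prime_orderOf_dvd_card' (G := center Q) 2 (hk ▸ dvd_pow_self 2 hk0.ne')
  intro h
  have h1 : z * z = 1 := by rw [← pow_two, ← hz, pow_orderOf_eq_one]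
  have hm : ((z : Q) : G) ∈ omegaZ Q := ⟨(z : Q).2, congrArg (fun w : center Q => ((w : Q) : G)) h1,
    fun q hq => congrArg Subtype.val (mem_center_iff.1 z.2 ⟨q, hq⟩)⟩
  rw [h, mem_bot] at hm
  have : z = 1 := Subtype.ext (Subtype.ext hm)
  rw [this, orderOf_one] at hz
  exact absurd hz (by norm_num)

theorem mem_Z (hN : d.NoCentral) {x : G} :
    x ∈ d.Z ↔ x ∈ d.P ∧ x * x = 1 ∧ ∀ p ∈ d.P, p * x = x * p := by
  constructor
  · rintro ⟨h1, h2⟩
    exact ⟨d.VP h1, d.sq_V h1, fun p hp => h2 p hp⟩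
  · rintro ⟨h1, h2, h3⟩
    refine ⟨⟨?_, h2, fun q hq => h3 q (d.QP hq)⟩, fun p hp => h3 p hp⟩
    by_contra hQ
    obtain ⟨q, hq, hne⟩ := hN x h1 hQ
    exact hne (h3 q (d.QP hq))

theorem cj_y_Z (hN : d.NoCentral) : cj d.y d.Z = d.Z := by
  have hm : ∀ x, x ∈ d.P → d.y⁻¹ * x * d.y ∈ d.P := fun x => d.mem_P_conj.2
  ext x
  rw [mem_cj, mem_Z hN, mem_Z hN, d.mem_P_conj]
  refine and_congr_right fun hx => and_congr ?_ ?_
  · constructor <;> intro h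
    · calc x * x = d.y * ((d.y⁻¹ * x * d.y) * (d.y⁻¹ * x * d.y)) * d.y⁻¹ := by group
        _ = 1 := by rw [h]; group
    · calc (d.y⁻¹ * x * d.y) * (d.y⁻¹ * x * d.y) = d.y⁻¹ * (x * x) * d.y := by group
        _ = 1 := by rw [h]; group
  · constructor <;> intro h p hp
    · calc p * x = d.y * ((d.y⁻¹ * p * d.y) * (d.y⁻¹ * x * d.y)) * d.y⁻¹ := by group
        _ = x * p := by rw [h _ (hm p hp)]; group
    · have hp' : d.y * p * d.y⁻¹ ∈ d.P := by rw [← d.mem_P_conj]; simpa [mul_assoc] using hp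
      calc p * (d.y⁻¹ * x * d.y) = d.y⁻¹ * ((d.y * p * d.y⁻¹) * x) * d.y := by group
        _ = d.y⁻¹ * x * d.y * p := by rw [h _ hp']; group

/-- `Z` is not normal in `H`. -/
theorem Z_not_normal (hN : d.NoCentral) (hne : d.Z ≠ ⊥) :
    ¬ d.H ≤ normalizer (d.Z : Set G) :=
  fun h => hne (d.noCore _ (inf_le_left.trans d.VP) h (cj_y_Z hN).le)

theorem not_centralizes (hN : d.NoCentral) {a : G} (ha : a ∈ d.P) (ha' : a ∉ d.Q) :
    ∃ v ∈ d.V, v * a ≠ a * v := by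
  by_contra hc
  push Not at hc
  have hVZ : d.V ≤ d.Z := by
    intro v hv
    refine ⟨hv, ?_⟩
    have hP : d.P ≤ centralizer ({v} : Set G) := d.P_le (fun q hq => by
      rw [mem_centralizer_singleton_iff]; exact d.comm_VQ hv hq) ha ha'
      (mem_centralizer_singleton_iff.2 (hc v hv).symm)
    exact fun p hp => mem_centralizer_singleton_iff.1 (hP hp)
  have hZ : d.Z = d.V := le_antisymm inf_le_left hVZ
  exact Z_not_normal hN (hZ ▸ omega_ne_bot (d.pgroup.to_le d.QP) d.Qne) (hZ ▸ d.HnV)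

/-- The data of a transvection. -/
structure Trans (d : Cfg G) : Prop where
  noCentral : d.NoCentral
  exists_u : ∃ u ∈ d.P, u ∉ d.Q ∧
    ∀ v ∈ d.V, ∀ w ∈ d.V, v * u ≠ u * v → w * u ≠ u * w → v * w * u = u * (v * w)

variable (hT : Trans d)
include hT

theorem mem_Z_of_comm {a v : G} (ha : a ∈ d.P) (ha' : a ∉ d.Q) (hv : v ∈ d.V)
    (h : v * a = a * v) : v ∈ d.Z := by
  refine ⟨hv, fun p hp => ?_⟩
  have hP : d.P ≤ centralizer ({v} : Set G) := d.P_le (fun q hq => by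
    rw [mem_centralizer_singleton_iff]; exact d.comm_VQ hv hq) ha ha'
    (mem_centralizer_singleton_iff.2 h.symm)
  exact mem_centralizer_singleton_iff.1 (hP hp)

theorem Z_index {v w : G} (hv : v ∈ d.V) (hw : w ∈ d.V) (hv' : v ∉ d.Z) (hw' : w ∉ d.Z) :
    v * w ∈ d.Z := by
  obtain ⟨u, hu, hu', h⟩ := hT.exists_u
  exact mem_Z_of_comm hT hu hu' (mul_mem hv hw) (h v hv w hw
    (fun e => hv' (mem_Z_of_comm hT hu hu' hv e)) (fun e => hw' (mem_Z_of_comm hT hu hu' hw e)))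

theorem exists_not_mem_Z : ∃ v ∈ d.V, v ∉ d.Z := by
  obtain ⟨u, hu, hu', -⟩ := hT.exists_u
  obtain ⟨v, hv, hne⟩ := not_centralizes hT.noCentral hu hu'
  exact ⟨v, hv, fun h => hne (h.2 u hu).symm⟩

theorem comm_mem_Z {v a : G} (hv : v ∈ d.V) (ha : a ∈ d.P) : ⁅v, a⁆ ∈ d.Z := by
  by_cases hvZ : v ∈ d.Z
  · rw [show ⁅v, a⁆ = 1 from commutatorElement_eq_one_iff_mul_comm.2 (hvZ.2 a ha).symm]
    exact one_mem _
  · have h1 : a * v * a⁻¹ ∈ d.V := (mem_normalizer_iff.1 (d.HnV (d.PH ha)) v).1 hv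
    have h2 : a * v * a⁻¹ ∉ d.Z := fun h => hvZ (by
      have e := h.2 a ha
      rw [show v = a * v * a⁻¹ from mul_left_cancel (a := a) (by rw [e]; group)]
      exact h)
    rw [commutatorElement_def, d.inv_V hv, mul_assoc v a, mul_assoc v (a * v)]
    exact Z_index hT hv h1 hvZ h2

theorem comm_eq {v v' a a' : G} (hv : v ∈ d.V) (hv' : v ∉ d.Z) (hw : v' ∈ d.V) (hw' : v' ∉ d.Z)
    (ha : a ∈ d.P) (ha' : a ∉ d.Q) (hb : a' ∈ d.P) (hb' : a' ∉ d.Q) : ⁅v', a'⁆ = ⁅v, a⁆ := by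
  have h1 : ⁅v', a'⁆ = ⁅v', a⁆ := by
    obtain ⟨q, hq, rfl⟩ : ∃ q ∈ d.Q, a' = a * q :=
      ⟨a⁻¹ * a', by
        simpa using mul_mem (inv_mem ((d.two a ha ha' a ha ha'))) (d.two a ha ha' a' hb hb'), by group⟩
    rw [commutatorElement_def, commutatorElement_def, mul_inv_rev]
    calc v' * (a * q) * v'⁻¹ * (q⁻¹ * a⁻¹) = v' * a * (q * v'⁻¹) * q⁻¹ * a⁻¹ := by group
      _ = v' * a * v'⁻¹ * a⁻¹ := by rw [d.comm_VQ (inv_mem hw) hq]; group
  rw [h1]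
  set e := v' * v⁻¹ with he
  have heZ : e ∈ d.Z := by rw [he, d.inv_V hv]; exact Z_index hT hw hv hw' hv'
  have hv'e : v' = e * v := by rw [he]; group
  have hz := comm_mem_Z hT hv ha
  rw [hv'e, show ⁅e * v, a⁆ = e * ⁅v, a⁆ * e⁻¹ * ⁅e, a⁆ by
      simp only [commutatorElement_def]; group,
    show ⁅e, a⁆ = 1 from commutatorElement_eq_one_iff_mul_comm.2 (heZ.2 a ha).symm, mul_one]
  have hc : e * ⁅v, a⁆ = ⁅v, a⁆ * e := d.comm_VQ hz.1 (d.VQ heZ.1)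
  rw [hc, mul_inv_cancel_right]

/-- The common commutator. -/
theorem exists_z : ∃ z ∈ d.Z, z ≠ 1 ∧
    ∀ v ∈ d.V, v ∉ d.Z → ∀ a ∈ d.P, a ∉ d.Q → ⁅v, a⁆ = z := by
  obtain ⟨u, hu, hu', -⟩ := hT.exists_u
  obtain ⟨v, hv, hvZ⟩ := exists_not_mem_Z hT
  refine ⟨⁅v, u⁆, comm_mem_Z hT hv hu, fun h => hvZ ?_,
    fun w hw hw' a ha ha' => comm_eq hT hv hvZ hw hw' hu hu' ha ha'⟩
  exact mem_Z_of_comm hT hu hu' hv (commutatorElement_eq_one_iff_mul_comm.1 h)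

/-- The common commutator. -/
noncomputable def z : G := (exists_z hT).choose

theorem z_mem : z hT ∈ d.Z := (exists_z hT).choose_spec.1
theorem z_ne : z hT ≠ 1 := (exists_z hT).choose_spec.2.1
theorem z_spec {v a : G} (hv : v ∈ d.V) (hv' : v ∉ d.Z) (ha : a ∈ d.P) (ha' : a ∉ d.Q) :
    ⁅v, a⁆ = z hT := (exists_z hT).choose_spec.2.2 v hv hv' a ha ha'
theorem z_inv : (z hT)⁻¹ = z hT := d.inv_V (z_mem hT).1

theorem C_le_Z : d.C ≤ d.Z := inf_le_inf_left _ (centralizer_le d.PH)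

theorem mem_C {k x : G} (hk : d.Good k) (h1 : x ∈ d.Z) (h2 : x ∈ cj k d.Z) : x ∈ d.C := by
  refine ⟨h1.1, ?_⟩
  have := hk.2 (centralizer {x}) (fun p hp => mem_centralizer_singleton_iff.2 (h1.2 p hp)) (by
    intro w hw
    rw [mem_cj] at hw h2
    rw [mem_centralizer_singleton_iff]
    calc w * x = k * ((k⁻¹ * w * k) * (k⁻¹ * x * k)) * k⁻¹ := by group
      _ = x * w := by rw [h2.2 _ hw]; group)
  exact fun g hg => mem_centralizer_singleton_iff.1 (this hg)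

theorem C_cj_Z {k x : G} (hk : k ∈ d.H) (hx : x ∈ d.C) : x ∈ cj k d.Z := by
  rw [mem_cj, show k⁻¹ * x * k = x by rw [mul_assoc, ← hx.2 k hk]; group]
  exact C_le_Z hT hx

theorem cjZ_index {k v w : G} (hk : k ∈ d.H) (hv : v ∈ d.V) (hw : w ∈ d.V) (hv' : v ∉ cj k d.Z)
    (hw' : w ∉ cj k d.Z) : v * w ∈ cj k d.Z := by
  rw [mem_cj] at hv' hw' ⊢
  rw [show k⁻¹ * (v * w) * k = (k⁻¹ * v * k) * (k⁻¹ * w * k) by group]
  exact Z_index hT ((mem_normalizer_iff''.1 (d.HnV hk) v).1 hv)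
    ((mem_normalizer_iff''.1 (d.HnV hk) w).1 hw) hv' hw'

theorem C_index {k x x' : G} (hk : d.Good k) (hx : x ∈ d.Z) (hx' : x' ∈ d.Z) (hxC : x ∉ d.C)
    (hxC' : x' ∉ d.C) : x * x' ∈ d.C :=
  mem_C hT hk (mul_mem hx hx') (cjZ_index hT hk.1 hx.1 hx'.1
    (fun h => hxC (mem_C hT hk hx h)) (fun h => hxC' (mem_C hT hk hx' h)))

theorem z_notMem_C : z hT ∉ d.C := by
  intro hzC
  obtain ⟨u, hu, hu', -⟩ := hT.exists_u
  -- everything acts trivially on `V` modulo `C`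
  let X : Subgroup G :=
    { carrier := {g | g ∈ d.H ∧ ∀ v ∈ d.V, g * v * g⁻¹ * v⁻¹ ∈ d.C}
      one_mem' := ⟨one_mem _, fun v _ => by simp⟩
      mul_mem' := fun {a b} ⟨ha, ha'⟩ ⟨hb, hb'⟩ => ⟨mul_mem ha hb, fun v hv => by
        have h := hb' v hv
        have hbv : b * v * b⁻¹ ∈ d.V := (mem_normalizer_iff.1 (d.HnV hb) v).1 hv
        have := mul_mem (ha' _ hbv) h
        convert this using 1
        group⟩
      inv_mem' := fun {a} ⟨ha, ha'⟩ => ⟨inv_mem ha, fun v hv => by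
        have hav : a⁻¹ * v * a ∈ d.V := (mem_normalizer_iff''.1 (d.HnV ha) v).1 hv
        have := inv_mem (ha' _ hav)
        convert this using 1
        group⟩ }
  have hQX : ∀ q ∈ d.Q, q ∈ X := fun q hq => ⟨d.QH hq, fun v hv => by
    rw [d.comm_VQ hv hq]; simp⟩
  have hPX : d.P ≤ X := by
    refine d.P_le hQX hu hu' ⟨d.PH hu, fun v hv => ?_⟩
    by_cases hvZ : v ∈ d.Z
    · rw [hvZ.2 u hu]; simp
    · have : u * v * u⁻¹ * v⁻¹ = z hT := by
        rw [← z_inv hT, ← z_spec hT hv hvZ hu hu', commutatorElement_inv, commutatorElement_def]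
      rw [this]; exact hzC
  have hX : d.H ≤ X := d.gen X hPX (by
    intro x hx
    rw [mem_cj] at hx
    obtain ⟨hxH, hx'⟩ := hPX hx
    refine ⟨?_, fun v hv => ?_⟩
    · rw [show x = d.h * (d.h⁻¹ * x * d.h) * d.h⁻¹ by group]
      exact mul_mem (mul_mem d.hmem hxH) (inv_mem d.hmem)
    · have h := hx' _ ((mem_normalizer_iff''.1 (d.HnV d.hmem) v).1 hv)
      rw [show x * v * x⁻¹ * v⁻¹ = d.h * ((d.h⁻¹ * x * d.h) * (d.h⁻¹ * v * d.h) *
        (d.h⁻¹ * x * d.h)⁻¹ * (d.h⁻¹ * v * d.h)⁻¹) * d.h⁻¹ by group, h.2 d.h d.hmem,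
        mul_inv_cancel_right]
      exact h)
  refine Z_not_normal hT.noCentral (fun h => z_ne hT ?_) (fun g hg => ?_)
  · have := z_mem hT
    rw [h, mem_bot] at this
    exact this
  · have key : ∀ g ∈ d.H, ∀ w ∈ d.Z, g * w * g⁻¹ ∈ d.Z := by
      intro g hg w hw
      have h := mul_mem (C_le_Z hT ((hX hg).2 w hw.1)) hw
      rwa [inv_mul_cancel_right] at h
    rw [mem_normalizer_iff]
    intro w
    refine ⟨key g hg w, fun h => ?_⟩
    have := key g⁻¹ (inv_mem hg) _ h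
    simpa [mul_assoc] using this

theorem cj_z_notMem_Z {k : G} (hk : d.Good k) : k * z hT * k⁻¹ ∉ d.Z := by
  intro h
  have hC := mem_C hT hk h (conj_mem_cj.2 (z_mem hT))
  have e := hC.2 k hk.1
  exact z_notMem_C hT ((show k * z hT * k⁻¹ = z hT from
    mul_left_cancel (a := k) (by rw [e]; group)) ▸ hC)

theorem Z_cases {x : G} (hx : x ∈ d.Z) : x ∈ d.C ∨ x * z hT ∈ d.C := by
  by_cases h : x ∈ d.C
  · exact Or.inl h
  · exact Or.inr (C_index hT d.good_h hx (z_mem hT) h (z_notMem_C hT))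

theorem cj_y_C_inf : cj d.y d.C ⊓ d.C = ⊥ := by
  refine d.noCore _ (inf_le_right.trans (inf_le_left.trans d.VP)) ?_ ?_
  · intro g hg
    apply mem_normalizer_of_cj
    exact cj_eq_self_of_centralizer fun x hx => (hx.2.2 g hg).symm
  · intro x hx
    rw [mem_cj] at hx
    obtain ⟨h1, h2⟩ := hx
    refine ⟨mem_cj.2 h2, ?_⟩
    replace h1 := mem_cj.1 h1
    have e : d.y⁻¹ * (d.y⁻¹ * x * d.y) * d.y = x := by
      obtain ⟨p, hp, c, hc, hyy⟩ := d.y2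
      have hxP : x ∈ d.P := by rw [← d.mem_P_conj]; exact d.VP h2.1
      have hxc : p⁻¹ * x * p = x := by
        have hxZ : x ∈ d.Z := by
          rw [← cj_y_Z hT.noCentral, mem_cj]; exact C_le_Z hT h2
        rw [mul_assoc, ← hxZ.2 p hp]; group
      calc d.y⁻¹ * (d.y⁻¹ * x * d.y) * d.y = (d.y * d.y)⁻¹ * x * (d.y * d.y) := by group
        _ = c⁻¹ * (p⁻¹ * x * p) * c := by rw [hyy]; group
        _ = x := by rw [hxc, mul_assoc, hc x hxP]; group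
    rwa [e] at h1

theorem C_unique {a b : G} (ha : a ∈ d.C) (ha1 : a ≠ 1) (hb : b ∈ d.C) (hb1 : b ≠ 1) : a = b := by
  have key : ∀ c ∈ d.C, c ≠ 1 → d.y * c * d.y⁻¹ ∈ d.Z ∧ d.y * c * d.y⁻¹ ∉ d.C := by
    intro c hc hc1
    refine ⟨?_, fun h => hc1 ?_⟩
    · rw [← cj_y_Z hT.noCentral]; exact conj_mem_cj.2 (C_le_Z hT hc)
    · have h' : d.y * c * d.y⁻¹ ∈ cj d.y d.C ⊓ d.C := ⟨conj_mem_cj.2 hc, h⟩
      rw [cj_y_C_inf hT, mem_bot, conj_eq_one_iff] at h'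
      exact h'
  by_contra hne
  have h1 : d.y * (a * b) * d.y⁻¹ ∈ d.C := by
    rw [show d.y * (a * b) * d.y⁻¹ = (d.y * a * d.y⁻¹) * (d.y * b * d.y⁻¹) by group]
    exact C_index hT d.good_h (key a ha ha1).1 (key b hb hb1).1 (key a ha ha1).2 (key b hb hb1).2
  refine (key _ (mul_mem ha hb) fun h => hne ?_).2 h1
  rw [← d.inv_V hb.1]
  exact eq_inv_of_mul_eq_one_left h

theorem V_cases {x w : G} (hw : w ∈ d.V) (hw' : w ∉ d.Z) (hx : x ∈ d.V) :
    x ∈ d.Z ∨ x * w ∈ d.Z := by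
  by_cases h : x ∈ d.Z
  · exact Or.inl h
  · exact Or.inr (Z_index hT hx hw h hw')

end Cfsg.Agent.PushDihedral.Cfg
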