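import Cfsg.Agent.PushDihedral.Transvection

/-!
Pushing up: walks of conjugates and the critical distance.
-/

set_option autoImplicit false
set_option linter.unusedSectionVars false

open Subgroup
open scoped commutatorElement

namespace Cfsg.Agent.PushDihedral.Cfg

variable {G : Type*} [Group G] [Finite G] {d : Cfg G}

/-- Adjacent vertices. -/
def Step (d : Cfg G) (g g' : G) : Prop :=
  ∃ a ∈ d.H, ∃ e, (e = d.y ∨ e = d.y⁻¹) ∧ ∃ b ∈ d.H, g' = g * a * e * b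

/-- Walks of given length. -/
def Walk (d : Cfg G) : ℕ → G → G → Prop
  | 0, g, g' => g⁻¹ * g' ∈ d.H
  | n + 1, g, g' => ∃ m, Walk d n g m ∧ d.Step m g'

theorem cj_edge_Q {e : G} (he : e = d.y ∨ e = d.y⁻¹) : cj e d.Q = d.Q' := by
  rcases he with rfl | rfl
  · rfl
  · exact d.cj_yinv_Q

theorem cj_edge_V {e : G} (he : e = d.y ∨ e = d.y⁻¹) : cj e d.V = d.V' := by
  rcases he with rfl | rfl
  · rfl
  · exact d.cj_yinv_V

theorem data_mul {b : G} (hb : b ∈ d.H) (g : G) :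
    cj (g * b) d.Q = cj g d.Q ∧ cj (g * b) d.V = cj g d.V := by
  rw [cj_mul, cj_mul, d.cj_Q hb, d.cj_V hb]; exact ⟨rfl, rfl⟩

theorem Step.data {g g' : G} (h : d.Step g g') :
    ∃ a ∈ d.H, cj g' d.Q = cj (g * a) d.Q' ∧ cj g' d.V = cj (g * a) d.V' := by
  obtain ⟨a, ha, e, he, b, hb, rfl⟩ := h
  refine ⟨a, ha, ?_, ?_⟩
  · rw [(data_mul hb _).1, cj_mul, cj_edge_Q he]
  · rw [(data_mul hb _).2, cj_mul, cj_edge_V he]

theorem Step.symm {g g' : G} (h : d.Step g g') : d.Step g' g := by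
  obtain ⟨a, ha, e, he, b, hb, rfl⟩ := h
  refine ⟨b⁻¹, inv_mem hb, e⁻¹, ?_, a⁻¹, inv_mem ha, by group⟩
  rcases he with rfl | rfl
  · exact Or.inr rfl
  · exact Or.inl (inv_inv _)

theorem Step.mul_left {g g' : G} (k : G) (h : d.Step g g') : d.Step (k * g) (k * g') := by
  obtain ⟨a, ha, e, he, b, hb, rfl⟩ := h
  exact ⟨a, ha, e, he, b, hb, by group⟩

theorem Step.mul_right {g g' b : G} (hb : b ∈ d.H) (h : d.Step g g') : d.Step g (g' * b) := by
  obtain ⟨a, ha, e, he, b', hb', rfl⟩ := h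
  exact ⟨a, ha, e, he, b' * b, mul_mem hb' hb, by group⟩

theorem Step.mul_right' {g g' b : G} (hb : b ∈ d.H) (h : d.Step g g') : d.Step (g * b) g' := by
  obtain ⟨a, ha, e, he, b', hb', rfl⟩ := h
  exact ⟨b⁻¹ * a, mul_mem (inv_mem hb) ha, e, he, b', hb', by group⟩

theorem Walk.mul_left : ∀ {n : ℕ} {g g' : G} (k : G), d.Walk n g g' → d.Walk n (k * g) (k * g')
  | 0, g, g', k, h => by
    show (k * g)⁻¹ * (k * g') ∈ d.H
    rw [show (k * g)⁻¹ * (k * g') = g⁻¹ * g' by group]; exact h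
  | n + 1, g, g', k, ⟨m, hm, hs⟩ => ⟨k * m, Walk.mul_left k hm, hs.mul_left k⟩

theorem Walk.prepend : ∀ {n : ℕ} {g m g' : G}, d.Step g m → d.Walk n m g' → d.Walk (n + 1) g g'
  | 0, g, m, g', hs, h => ⟨g, by show g⁻¹ * g ∈ d.H; simp, by
      simpa using hs.mul_right h⟩
  | n + 1, g, m, g', hs, ⟨m', hm', hs'⟩ => ⟨m', Walk.prepend hs hm', hs'⟩

theorem Walk.symm : ∀ {n : ℕ} {g g' : G}, d.Walk n g g' → d.Walk n g' g
  | 0, g, g', h => by
    show g'⁻¹ * g ∈ d.H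
    simpa using inv_mem h
  | n + 1, g, g', ⟨m, hm, hs⟩ => Walk.prepend hs.symm (Walk.symm hm)

theorem Walk.mul_right' : ∀ {n : ℕ} {g g' b : G}, b ∈ d.H → d.Walk n g g' → d.Walk n (g * b) g'
  | 0, g, g', b, hb, h => by
    show (g * b)⁻¹ * g' ∈ d.H
    rw [show (g * b)⁻¹ * g' = b⁻¹ * (g⁻¹ * g') by group]; exact mul_mem (inv_mem hb) h
  | n + 1, g, g', b, hb, ⟨m, hm, hs⟩ => ⟨m, Walk.mul_right' hb hm, hs⟩

theorem Walk.first : ∀ {n : ℕ} {g g' : G}, d.Walk (n + 1) g g' →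
    ∃ m, d.Step g m ∧ d.Walk n m g'
  | 0, g, g', ⟨m, hm, hs⟩ => ⟨g', by simpa using hs.mul_right' (inv_mem hm), by
      show g'⁻¹ * g' ∈ d.H
      simp⟩
  | n + 1, g, g', ⟨m, hm, hs⟩ => by
    obtain ⟨m', h1, h2⟩ := Walk.first hm
    exact ⟨m', h1, ⟨m, h2, hs⟩⟩

theorem Step.walk {g g' : G} (h : d.Step g g') : d.Walk 1 g g' :=
  ⟨g, by show g⁻¹ * g ∈ d.H; simp, h⟩

theorem step_edge {k e : G} (hk : k ∈ d.H) (he : e = d.y ∨ e = d.y⁻¹) : d.Step 1 (k * e) :=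
  ⟨k, hk, e, he, 1, one_mem _, by simp⟩

theorem exists_critical (hQ : d.Q ≠ ⊥) : ∃ n g, d.Walk n 1 g ∧ ¬ d.V ≤ cj g d.Q := by
  by_contra hc
  push Not at hc
  let N : Subgroup G := ⨅ (n : ℕ) (g : G) (_ : d.Walk n 1 g), cj g d.Q
  have hVN : d.V ≤ N := le_iInf fun n => le_iInf fun g => le_iInf fun hg => hc n g hg
  have hNle : ∀ n g, d.Walk n 1 g → N ≤ cj g d.Q := fun n g hg =>
    iInf_le_of_le n (iInf_le_of_le g (iInf_le _ hg))
  have hNQ : N ≤ d.Q := by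
    have := hNle 0 1 (by show (1 : G)⁻¹ * 1 ∈ d.H; simp)
    rwa [cj_one] at this
  have key : ∀ k : G, (∀ n g, d.Walk n 1 g → ∃ m, d.Walk m 1 (k * g)) → cj k⁻¹ N ≤ N := by
    intro k hk
    refine le_iInf fun n => le_iInf fun g => le_iInf fun hg => ?_
    obtain ⟨m, hm⟩ := hk n g hg
    have := cj_mono k⁻¹ (hNle m _ hm)
    rwa [← cj_mul, inv_mul_cancel_left] at this
  have hH : ∀ k ∈ d.H, cj k⁻¹ N ≤ N := fun k hk => key k fun n g hg => ⟨n, by
    have h1 := hg.mul_left k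
    rw [mul_one] at h1
    simpa using h1.mul_right' (inv_mem hk)⟩
  have hN : N = ⊥ := by
    refine d.noCore N (hNQ.trans d.QP) (fun k hk => ?_) ?_
    · have h1 := hH k hk
      have h2 := hH k⁻¹ (inv_mem hk)
      rw [inv_inv] at h2
      exact mem_normalizer_of_cj (le_antisymm h2 (le_cj_iff.2 h1))
    · have := key d.y⁻¹ fun n g hg => ⟨n + 1, Walk.prepend
        (by simpa using step_edge (d := d) (one_mem _) (Or.inr rfl)) (by simpa using hg.mul_left d.y⁻¹)⟩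
      rwa [inv_inv] at this
  exact omega_ne_bot (d.pgroup.to_le d.QP) hQ (le_bot_iff.1 (hN ▸ hVN))

/-- The critical distance. -/
structure Crit (d : Cfg G) (b : ℕ) : Prop where
  exists_walk : ∃ g, d.Walk b 1 g ∧ ¬ d.V ≤ cj g d.Q
  minimal : ∀ n g g', d.Walk n g g' → n < b → cj g d.V ≤ cj g' d.Q

theorem exists_crit (d : Cfg G) : ∃ b, 1 ≤ b ∧ Crit d b := by
  classical
  have h := exists_critical (d := d) d.Qne
  refine ⟨Nat.find h, ?_, Nat.find_spec h, fun n g g' hw hn => ?_⟩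
  · by_contra h0
    obtain ⟨g, hg, hne⟩ := Nat.find_spec h
    rw [show Nat.find h = 0 by omega] at hg
    apply hne
    have hgH : g ∈ d.H := by simpa [Walk] using hg
    rw [d.cj_Q hgH]
    exact d.VQ
  · have h' := Nat.find_min h hn
    push Not at h'
    have h1 := hw.mul_left g⁻¹
    rw [inv_mul_cancel] at h1
    have := cj_mono g (h' _ h1)
    rwa [← cj_mul, mul_inv_cancel_left] at this

/-- The distance one. -/
theorem not_V_le_of_crit_one (h : Crit d 1) : ¬ d.V ≤ d.Q' := by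
  obtain ⟨g, hg, hne⟩ := h.exists_walk
  obtain ⟨m, hs, hm⟩ := Walk.first hg
  intro hle
  apply hne
  obtain ⟨a, ha, hQ, -⟩ := hs.data
  have hQm : cj g d.Q = cj m d.Q := by
    have := (data_mul (d := d) hm m).1
    rwa [mul_inv_cancel_left] at this
  rw [hQm, hQ, one_mul, ← d.cj_V ha]
  exact cj_mono a hle

end Cfsg.Agent.PushDihedral.Cfg
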